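import Cfsg.Agent.Lib.BrauerCharacters.DegreeThree.Triple
import Cfsg.Agent.Lib.SL2.Dickson.Sixty

/-!
# A faithful character of degree three forces the alternating group of degree five
-/

set_option autoImplicit false
set_option linter.unusedSectionVars false

namespace CfsgLib.BrauerCharacters.DegreeThree

open Cfsg CfsgLib.CharTheory
open scoped ComplexConjugate

variable {G : Type*} [Group G] [Fintype G] {u : G} (h : Hyp u) (hu2 : u * u = 1)
  {θ θ' X Y : G → ℂ} (t : Tri (u := u) θ θ' X Y) (hf : ∀ g, θ g = 3 → g = 1)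

include h hu2 t hf

theorem irr_mem {χ : G → ℂ} (hχ : IsIrrCharacter G χ) :
    χ = one' G ∨ χ = θ ∨ χ = θ' ∨ χ = X ∨ χ = Y := by
  classical
  by_contra hc
  push Not at hc
  obtain ⟨c1, c2, c3, c4, c5⟩ := hc
  let W : Submodule ℂ (G → ℂ) := Submodule.span ℂ {one' G, θ, θ', X, Y}
  have hm : ∀ f ∈ ({one' G, θ, θ', X, Y} : Set (G → ℂ)), f ∈ W := fun f hf' =>
    Submodule.subset_span hf'
  have hmul : ∀ w ∈ W, θ * w ∈ W := by
    intro w hw
    induction hw using Submodule.span_induction with
    | mem f hf' =>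
      have k1 : one' G ∈ W := hm _ (by simp)
      have k2 : θ ∈ W := hm _ (by simp)
      have k3 : θ' ∈ W := hm _ (by simp)
      have k4 : X ∈ W := hm _ (by simp)
      have k5 : Y ∈ W := hm _ (by simp)
      rcases hf' with rfl | rfl | rfl | rfl | rfl
      · rw [mul_one']; exact k2
      · rw [t.sq]; exact W.add_mem (W.add_mem k1 k2) k4
      · rw [t.mulθ']; exact W.add_mem k4 k5
      · rw [t.mulX]; exact W.add_mem (W.add_mem (W.add_mem k2 k3) k5) k4
      · rw [t.mulY h hu2]; exact W.add_mem (W.add_mem k3 k5) k4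
    | zero => simp
    | add x y _ _ hx hy => rw [mul_add]; exact W.add_mem hx hy
    | smul c x _ hx => rw [mul_smul_comm]; exact W.smul_mem c hx
  have hprod : ∀ s : Finset ℂ, (fun g => ∏ v ∈ s, (θ g - v)) ∈ W := by
    intro s
    induction s using Finset.induction_on with
    | empty => exact hm _ (Or.inl rfl)
    | insert v s hv ih =>
      have e : (fun g => ∏ w ∈ insert v s, (θ g - w)) =
          θ * (fun g => ∏ w ∈ s, (θ g - w)) - v • (fun g => ∏ w ∈ s, (θ g - w)) := by
        funext g
        simp [Finset.prod_insert hv]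
        ring
      rw [e]
      exact W.sub_mem (hmul _ ih) (W.smul_mem _ ih)
  let s : Finset ℂ := (Finset.univ.image θ).erase 3
  have hP := hprod s
  have horth : ∀ w ∈ W, classInner w χ = 0 := by
    intro w hw
    induction hw using Submodule.span_induction with
    | mem f hf' =>
      obtain ⟨⟨i1, i2, i3, i4⟩, -⟩ := t
      rcases hf' with rfl | rfl | rfl | rfl | rfl
      · exact classInner_eq_zero_of_ne irr_one' hχ (Ne.symm c1)
      · exact classInner_eq_zero_of_ne i1 hχ (Ne.symm c2)
      · exact classInner_eq_zero_of_ne i2 hχ (Ne.symm c3)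
      · exact classInner_eq_zero_of_ne i3 hχ (Ne.symm c4)
      · exact classInner_eq_zero_of_ne i4 hχ (Ne.symm c5)
    | zero => exact classInner_zero_left _
    | add x y _ _ hx hy => rw [classInner_add_left, hx, hy, add_zero]
    | smul c x _ hx => rw [classInner_smul_left, hx, mul_zero]
  have h0 := horth _ hP
  rw [classInner, Finset.sum_eq_single 1] at h0
  rotate_left
  · intro g _ hg
    rw [Finset.prod_eq_zero (i := θ g) (Finset.mem_erase.2
      ⟨fun e => hg (hf g e), Finset.mem_image_of_mem _ (Finset.mem_univ g)⟩) (sub_self _)]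
    simp
  · simp
  rcases mul_eq_zero.1 h0 with e | e
  · simp [Nat.card_pos.ne'] at e
  rcases mul_eq_zero.1 e with e | e
  · obtain ⟨v, hv, hv0⟩ := Finset.prod_eq_zero_iff.1 e
    rw [t.deg.1, sub_eq_zero] at hv0
    exact (Finset.mem_erase.1 hv).1 hv0.symm
  · rw [conj_degree (irrChar hχ)] at e
    exact apply_one_ne_zero_of_isIrr hχ e

theorem sum_irr {M : Type*} [AddCommMonoid M] [Fintype (IrrCharacter G)] (F : (G → ℂ) → M) :
    ∑ χ : IrrCharacter G, F (χ : G → ℂ) = F (one' G) + F θ + F θ' + F X + F Y := by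
  classical
  obtain ⟨⟨i1, i2, i3, i4⟩, ⟨d1, d2, d3, d4⟩, -, hne, -⟩ := id t
  have hne' : ∀ {a b : G → ℂ}, a 1 ≠ b 1 → a ≠ b := fun hab e => hab (congrFun e 1)
  have hu : (Finset.univ : Finset (IrrCharacter G)) =
      {⟨one' G, irr_one'⟩, ⟨θ, i1⟩, ⟨θ', i2⟩, ⟨X, i3⟩, ⟨Y, i4⟩} := by
    ext ⟨χ, hχ⟩
    simp only [Finset.mem_univ, Finset.mem_insert, Finset.mem_singleton, true_iff, Subtype.mk.injEq]
    exact irr_mem h hu2 t hf hχ
  rw [hu, Finset.sum_insert, Finset.sum_insert, Finset.sum_insert, Finset.sum_insert,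
    Finset.sum_singleton]
  · abel
  all_goals simp only [Finset.mem_insert, Finset.mem_singleton, Subtype.mk.injEq, not_or]
  · exact hne' (by rw [d3, d4]; norm_num)
  · exact ⟨hne' (by rw [d2, d3]; norm_num), hne' (by rw [d2, d4]; norm_num)⟩
  · exact ⟨Ne.symm hne, hne' (by rw [d1, d3]; norm_num), hne' (by rw [d1, d4]; norm_num)⟩
  · exact ⟨hne' (by rw [d1]; simp [one']), hne' (by rw [d2]; simp [one']),
      hne' (by rw [d3]; simp [one']), hne' (by rw [d4]; simp [one'])⟩

theorem card_eq_sixty : Nat.card G = 60 := by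
  classical
  haveI := Fintype.ofFinite (IrrCharacter G)
  obtain ⟨d1, d2, d3, d4⟩ := t.deg
  have := sum_degree_sq (G := G)
  rw [sum_irr h hu2 t hf (fun f => f 1 ^ 2), d1, d2, d3, d4, one'_apply] at this
  have h60 : ((60 : ℕ) : ℂ) = (Nat.card G : ℂ) := by rw [← this]; norm_num
  exact_mod_cast h60.symm

theorem values_involution {x : G} (hx : x * x = 1) (hx1 : x ≠ 1) :
    θ x = -1 ∧ θ' x = -1 ∧ X x = 1 ∧ Y x = 0 := by
  have hθ := (value_involution h.perfect (irrChar t.irr.1) t.deg.1 hx).resolve_left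
    fun e => hx1 (hf x e)
  have e1 := congrFun t.sq x
  have e2 := congrFun t.mulX x
  have e3 := congrFun t.mulθ' x
  have e4 := congrFun (t.mulY h hu2) x
  simp only [Pi.mul_apply, Pi.add_apply, one', hθ] at e1 e2 e3 e4
  have hX : X x = 1 := by linear_combination -e1
  rw [hX] at e2 e3 e4
  have h' : θ' x = -1 := by linear_combination e4 - 2 * e3
  exact ⟨hθ, h', hX, by linear_combination -e3 - h'⟩

theorem card_centralizer_involution {x : G} (hx : x * x = 1) (hx1 : x ≠ 1) :
    Nat.card (Subgroup.centralizer ({x} : Set G)) = 4 := by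
  classical
  haveI := Fintype.ofFinite (IrrCharacter G)
  obtain ⟨a, b, c, d⟩ := values_involution h hu2 t hf hx hx1
  have := sum_mul_conj (G := G) x x
  rw [sum_irr h hu2 t hf (fun f => f x * conj (f x)), if_pos (IsConj.refl x), a, b, c, d,
    one'_apply] at this
  have h4 : ((4 : ℕ) : ℂ) = (Nat.card (Subgroup.centralizer ({x} : Set G)) : ℂ) := by
    rw [← this]; simp; norm_num
  exact_mod_cast h4.symm

theorem no_order_four {w : G} (hw : w ^ 4 = 1) : w * w = 1 := by
  by_contra hw2
  have hww : (w * w) * (w * w) = 1 := by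
    rw [← hw]; simp only [pow_succ, pow_zero, one_mul, mul_assoc]
  have hθ2 := (values_involution h hu2 t hf hww hw2).1
  rw [sq_three h.perfect (irrChar t.irr.1) t.deg.1, t.real] at hθ2
  have hθ : θ w = 1 := by
    have : (θ w - 1) ^ 2 = 0 := by linear_combination hθ2
    exact sub_eq_zero.1 (pow_eq_zero_iff two_ne_zero |>.1 this)
  have e1 := congrFun t.sq w
  have e2 := congrFun t.mulX w
  have e3 := congrFun t.mulθ' w
  have e4 := congrFun (t.mulY h hu2) w
  simp only [Pi.mul_apply, Pi.add_apply, one', hθ] at e1 e2 e3 e4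
  have : (4 : ℂ) = 0 := by linear_combination -3 * e1 - e2 + e3 + 2 * e4
  norm_num at this

/-- A second involution commuting with a given one. -/
theorem exists_commuting {x : G} (hx : x * x = 1) (hx1 : x ≠ 1) :
    ∃ y : G, y ≠ 1 ∧ y ≠ x ∧ y * y = 1 ∧ x * y = y * x := by
  classical
  have h4 := card_centralizer_involution h hu2 t hf hx hx1
  obtain ⟨y, hy, hy1⟩ : ∃ y ∈ Subgroup.centralizer ({x} : Set G), y ∉ ({1, x} : Finset G) := by
    by_contra hc
    push Not at hc
    have hle := Nat.card_mono (Finset.finite_toSet ({1, x} : Finset G)) hc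
    rw [show Nat.card ↥(Subgroup.centralizer ({x} : Set G) : Set G) = 4 from h4,
      Nat.card_eq_fintype_card] at hle
    have : ({1, x} : Finset G).card ≤ 2 := Finset.card_le_two
    simp only [Finset.coe_sort_coe, Fintype.card_coe] at hle
    omega
  simp only [Finset.mem_insert, Finset.mem_singleton, not_or] at hy1
  refine ⟨y, hy1.1, hy1.2, no_order_four h hu2 t hf ?_,
    Subgroup.mem_centralizer_singleton_iff.1 hy |>.symm⟩
  have := pow_card_eq_one' (x := (⟨y, hy⟩ : Subgroup.centralizer ({x} : Set G)))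
  rw [h4] at this
  exact congrArg Subtype.val this

theorem apply_eq_three {x : G} (hx : θ' x = 3) : x = 1 := by
  have e1 := congrFun t.sq x
  have e2 := congrFun t.mulX x
  have e3 := congrFun t.mulθ' x
  have e4 := congrFun (t.mulY h hu2) x
  simp only [Pi.mul_apply, Pi.add_apply, one', hx] at e1 e2 e3 e4
  set a := θ x with ha
  have hq : (a - 3) * (a + 1) ^ 2 = 0 := by linear_combination a * e1 + e2 - e3
  rcases mul_eq_zero.1 hq with e | e
  · exact hf x (sub_eq_zero.1 e)
  · exfalso
    have ha1 : a = -1 := by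
      have := pow_eq_zero_iff two_ne_zero |>.1 e
      linear_combination this
    rw [ha1] at e1 e2 e3 e4
    have : (4 : ℂ) = 0 := by linear_combination e4 - 2 * e3 + e1
    norm_num at this

theorem isSimple : ∀ N : Subgroup G, N.Normal → N = ⊥ ∨ N = ⊤ := by
  intro N hN
  by_cases hu : u ∈ N
  · exact Or.inr (h.normal_eq_top N hu)
  left
  haveI := hN
  obtain ⟨φ, hφ, hφ3, -⟩ := (h.quotient N hu).exists_three
  have hχ : IsIrrCharacter G (fun g => φ (g : G ⧸ N)) :=
    isIrrCharacter_comp hφ (QuotientGroup.mk'_surjective N)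
  have h1 : (fun g => φ (g : G ⧸ N)) (1 : G) = 3 := by simpa using hφ3
  rw [eq_bot_iff]
  intro g hg
  have hg3 : (fun g => φ (g : G ⧸ N)) g = 3 := by
    show φ _ = 3
    rw [(QuotientGroup.eq_one_iff g).2 hg, hφ3]
  obtain ⟨d1, d2, d3, d4⟩ := t.deg
  rcases irr_mem h hu2 t hf hχ with e | e | e | e | e <;>
    replace h1 := (congrFun e 1).symm.trans h1 <;> replace hg3 := (congrFun e g).symm.trans hg3
  · rw [one'_apply] at h1; norm_num at h1
  · exact hf g hg3
  · exact apply_eq_three h hu2 t hf hg3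
  · rw [d3] at h1; norm_num at h1
  · rw [d4] at h1; norm_num at h1

theorem equiv_alternating : Nonempty (G ≃* alternatingGroup (Fin 5)) := by
  refine SL2.Dickson.Sixty.nonempty_mulEquiv_alternating_five (card_eq_sixty h hu2 t hf)
    fun R hR hn => ?_
  rcases isSimple h hu2 t hf R hn with rfl | rfl
  · simp at hR
  · rw [Subgroup.card_top, card_eq_sixty h hu2 t hf] at hR
    norm_num at hR

end CfsgLib.BrauerCharacters.DegreeThree
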