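import Cfsg.Agent.Lib.PermGroups.Zassenhaus.Main
import Cfsg.Agent.Lib.Cores.PCore

/-!
# Auxiliary group theory for the degree three argument
-/

set_option autoImplicit false
set_option linter.unusedSectionVars false

namespace CfsgLib.BrauerCharacters.DegreeThree

open Cfsg

variable {G : Type*} [Group G] [Finite G]

theorem inf_center_ne_bot {P : Type*} [Group P] [Finite P] {p : ℕ} [Fact p.Prime]
    (hP : IsPGroup p P) (T : Subgroup P) [T.Normal] (hT : T ≠ ⊥) :
    T ⊓ Subgroup.center P ≠ ⊥ := by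
  classical
  obtain ⟨k, hk⟩ := IsPGroup.iff_card.1 (hP.to_subgroup T)
  have hpd : p ∣ Nat.card T := by
    rw [hk]
    refine dvd_pow_self p fun e => hT (Subgroup.card_eq_one.1 (by rw [hk, e, pow_zero]))
  have h1 : (1 : T) ∈ MulAction.fixedPoints (ConjAct P) T := fun x => smul_one x
  obtain ⟨b, hb, hb1⟩ := IsPGroup.exists_fixed_point_of_prime_dvd_card_of_fixed_point
    (G := ConjAct P) (p := p) (fun x => hP (ConjAct.ofConjAct x)) T hpd h1
  intro e
  have : (b : P) ∈ T ⊓ Subgroup.center P := by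
    refine ⟨b.2, Subgroup.mem_center_iff.2 fun g => ?_⟩
    have := congrArg Subtype.val (hb (ConjAct.toConjAct g))
    change g * (b : P) * g⁻¹ = b at this
    calc g * b = (g * b * g⁻¹) * g := by group
      _ = b * g := by rw [this]
  rw [e, Subgroup.mem_bot] at this
  exact hb1 (Subtype.ext this.symm)

/-- A normal subgroup whose Sylow 2-subgroup has order two has an odd normal part of index two. -/
theorem exists_odd_part (K : Subgroup G) [K.Normal] (P : Sylow 2 G)
    (hT : Nat.card (K.subgroupOf (P : Subgroup G)) ≤ 2) (w : G) (hwK : w ∈ K) (hw1 : w ≠ 1)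
    (hw : w * w = 1) :
    ∃ O : Subgroup G, O.Normal ∧ O ≤ K ∧ Odd (Nat.card O) ∧
      ∀ g ∈ K, g ∈ O ∨ w⁻¹ * g ∈ O := by
  classical
  haveI : Fact (Nat.Prime 2) := ⟨Nat.prime_two⟩
  -- the order of a Sylow subgroup of `K`
  let q := (QuotientGroup.mk' K).comp (P : Subgroup G).subtype
  have hker : q.ker = K.subgroupOf (P : Subgroup G) := by
    rw [← MonoidHom.comap_ker, QuotientGroup.ker_mk']; rfl
  have hrange : Nat.card q.range = 2 ^ (Nat.card (G ⧸ K)).factorization 2 := by
    have : q.range = (P.mapSurjective (QuotientGroup.mk'_surjective K) : Subgroup (G ⧸ K)) := by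
      rw [MonoidHom.range_comp, Subgroup.range_subtype]; rfl
    rw [this, Sylow.card_eq_multiplicity]
  have hPcard : Nat.card (P : Subgroup G) = Nat.card q.range * Nat.card q.ker := by
    rw [Subgroup.card_eq_card_quotient_mul_card_subgroup q.ker,
      Nat.card_congr (QuotientGroup.quotientKerEquivRange q).toEquiv]
  rw [Sylow.card_eq_multiplicity, hrange, hker,
    Subgroup.card_eq_card_quotient_mul_card_subgroup K,
    Nat.factorization_mul Nat.card_pos.ne' Nat.card_pos.ne', Finsupp.add_apply, pow_add] at hPcard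
  have h2K : 2 ^ (Nat.card K).factorization 2 ≤ 2 := by
    rw [Nat.eq_of_mul_eq_mul_left (by positivity) hPcard]; exact hT
  -- the normal complement
  obtain ⟨S⟩ := (inferInstance : Nonempty (Sylow 2 K))
  have hS : Nat.card (S : Subgroup K) ≤ 2 := by rw [Sylow.card_eq_multiplicity]; exact h2K
  haveI : IsCyclic (S : Subgroup K) := by
    rcases Nat.le_one_iff_eq_zero_or_eq_one.1 (Nat.sub_le_iff_le_add.2 hS : Nat.card (S : Subgroup K) - 1 ≤ 1)
      with e | e
    · haveI : Subsingleton (S : Subgroup K) :=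
        (Nat.card_eq_one_iff_unique.1 (by have := Nat.card_pos (α := (S : Subgroup K)); omega)).1
      exact isCyclic_of_subsingleton
    · exact isCyclic_of_prime_card (p := 2) (by omega)
  have hK1 : 2 ∣ Nat.card K := by
    have : orderOf (⟨w, hwK⟩ : K) = 2 := orderOf_eq_prime (Subtype.ext (by simp [pow_two, hw]))
      fun e => hw1 (congrArg Subtype.val e)
    exact this ▸ orderOf_dvd_natCard _
  have hmin : (Nat.card K).minFac = 2 := (Nat.minFac_eq_two_iff _).2 hK1
  have hcent : Subgroup.normalizer ((S : Subgroup K) : Set K) ≤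
      Subgroup.centralizer ((S : Subgroup K) : Set K) :=
    IsCyclic.normalizer_le_centralizer (hp := hmin) inferInstance
  let C := (MonoidHom.transferSylow S hcent).ker
  have hcomp : C.IsComplement' S := MonoidHom.ker_transferSylow_isComplement' S hcent
  have hCodd : Odd (Nat.card C) := by
    rw [Nat.odd_iff, ← Nat.two_dvd_ne_zero]
    have hm := hcomp.card_mul_card
    intro hd
    have hf := congrArg (fun n : ℕ => n.factorization 2) hm
    rw [Nat.factorization_mul Nat.card_pos.ne' Nat.card_pos.ne', Finsupp.add_apply,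
      Sylow.card_eq_multiplicity (P := S), Nat.Prime.factorization_pow Nat.prime_two,
      Finsupp.single_eq_same] at hf
    have := (Nat.prime_two.factorization_pos_of_dvd Nat.card_pos.ne' hd)
    omega
  have hidx : C.index ≤ 2 := by rw [hcomp.symm.index_eq_card]; exact hS
  have hCn : C.Normal := inferInstance
  have hmem : ∀ x : K, Odd (orderOf x) → x ∈ C := by
    intro x hx
    rw [← QuotientGroup.eq_one_iff]
    refine orderOf_eq_one_iff.1 ?_
    have h1 : orderOf (x : K ⧸ C) ∣ orderOf x := orderOf_map_dvd (QuotientGroup.mk' C) x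
    have h2 := Nat.le_of_dvd Nat.card_pos (orderOf_dvd_natCard (x : K ⧸ C))
    rw [show Nat.card (K ⧸ C) = C.index from rfl] at h2
    have h3 := orderOf_pos (x : K ⧸ C)
    by_contra hne
    have h22 : orderOf (x : K ⧸ C) = 2 := by omega
    rw [h22] at h1
    exact (Nat.not_even_iff_odd.2 hx) (even_iff_two_dvd.2 h1)
  refine ⟨C.map K.subtype, ⟨?_⟩, ?_, ?_, ?_⟩
  · rintro _ ⟨c, hc, rfl⟩ g
    refine ⟨⟨g * c * g⁻¹, ‹K.Normal›.conj_mem _ c.2 g⟩, hmem _ ?_, rfl⟩
    have : orderOf (⟨g * c * g⁻¹, ‹K.Normal›.conj_mem _ c.2 g⟩ : K) = orderOf c := by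
      rw [← Subgroup.orderOf_coe, ← Subgroup.orderOf_coe c]
      exact MulEquiv.orderOf_eq (MulAut.conj g) (c : G)
    rw [this]
    refine Odd.of_dvd_nat hCodd ?_
    rw [← Subgroup.orderOf_mk c hc]
    exact orderOf_dvd_natCard _
  · exact Subgroup.map_subtype_le C
  · rwa [Subgroup.card_map_of_injective K.subtype_injective]
  · intro g hg
    have hwC : (⟨w, hwK⟩ : K) ∉ C := by
      intro hm
      have h2 : orderOf (⟨w, hwK⟩ : K) = 2 := orderOf_eq_prime (Subtype.ext (by simp [pow_two, hw]))
        fun e => hw1 (congrArg Subtype.val e)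
      have := Odd.of_dvd_nat hCodd (orderOf_dvd_natCard (⟨_, hm⟩ : C))
      rw [Subgroup.orderOf_mk, h2] at this
      exact absurd this (by decide)
    have hi2 : C.index = 2 := by
      rcases (show C.index = 1 ∨ C.index = 2 by
        have := Subgroup.index_ne_zero_of_finite (H := C); omega) with e | e
      · exact absurd (Subgroup.index_eq_one.1 e ▸ Subgroup.mem_top _) hwC
      · exact e
    by_cases hgC : (⟨g, hg⟩ : K) ∈ C
    · exact Or.inl ⟨_, hgC, rfl⟩
    · refine Or.inr ⟨(⟨w, hwK⟩ : K)⁻¹ * ⟨g, hg⟩, ?_, rfl⟩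
      refine (Subgroup.mul_mem_iff_of_index_two hi2).2 ?_
      simp [hwC, hgC]

theorem equiv_sl {O : Subgroup G} [O.Normal] (hperf : commutator G = ⊤) (K : Subgroup G) [K.Normal]
    (e : G ⧸ K ≃* alternatingGroup (Fin 5)) (hOK : O ≤ K) {w : G}
    (hOi : ∀ g ∈ K, g ∈ O ∨ w⁻¹ * g ∈ O) (hwK : w ∈ K) (hwO : w ∉ O) (hw : w * w = 1) :
    Nonempty (G ⧸ O ≃* Matrix.SpecialLinearGroup (Fin 2) (ZMod 5)) := by
  have hperfQ : commutator (G ⧸ O) = ⊤ := by
    rw [← top_le_iff, ← Subgroup.map_top_of_surjective _ (QuotientGroup.mk'_surjective O), ← hperf,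
      Subgroup.map_le_iff_le_comap, commutator_def, Subgroup.commutator_le]
    intro a _ b _
    rw [Subgroup.mem_comap, map_commutatorElement, commutator_def]
    exact Subgroup.commutator_mem_commutator (Subgroup.mem_top _) (Subgroup.mem_top _)
  let q : G ⧸ O →* G ⧸ K := QuotientGroup.map O K (MonoidHom.id G) hOK
  let π : G ⧸ O →* Equiv.Perm (Fin 5) :=
    (alternatingGroup (Fin 5)).subtype.comp (e.toMonoidHom.comp q)
  have hz1 : ((w : G) : G ⧸ O) ≠ 1 := fun h => hwO ((QuotientGroup.eq_one_iff w).1 h)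
  refine CfsgLib.PermGroups.equiv_sl_two_five hperfQ (z := (w : G ⧸ O)) ?_ hz1 ?_ π ?_ ?_
  · rw [← QuotientGroup.mk_mul, hw, QuotientGroup.mk_one]
  · intro x
    obtain ⟨g, rfl⟩ := QuotientGroup.mk'_surjective O x
    rcases hOi (g * w * g⁻¹) (‹K.Normal›.conj_mem w hwK g) with h | h
    · exact absurd (by
        have := ‹O.Normal›.conj_mem _ h g⁻¹
        convert this using 1; group) hwO
    · have h' := (QuotientGroup.eq (s := O) (a := w) (b := g * w * g⁻¹)).2 h
      simp only [QuotientGroup.mk_mul, QuotientGroup.mk_inv] at h'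
      show (g : G ⧸ O) * w = w * g
      conv_rhs => rw [h']
      group
  · intro x
    obtain ⟨g, rfl⟩ := QuotientGroup.mk'_surjective O x
    have hπ : π (g : G ⧸ O) = 1 ↔ g ∈ K := by
      simp only [π, q, MonoidHom.comp_apply, Subgroup.coe_subtype, OneMemClass.coe_eq_one,
        MulEquiv.toMonoidHom_eq_coe, MonoidHom.coe_coe, EmbeddingLike.map_eq_one_iff,
        QuotientGroup.eq_one_iff]
      exact QuotientGroup.eq_one_iff g
    rw [QuotientGroup.mk'_apply, hπ]
    constructor
    · intro hg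
      rcases hOi g hg with h | h
      · exact Or.inl ((QuotientGroup.eq_one_iff g).2 h)
      · exact Or.inr ((QuotientGroup.eq (s := O)).2 h).symm
    · rintro (h | h)
      · exact hOK ((QuotientGroup.eq_one_iff g).1 h)
      · have := hOK ((QuotientGroup.eq (s := O) (a := w) (b := g)).1 h.symm)
        simpa using K.mul_mem hwK this
  · have hs : Function.Surjective (e.toMonoidHom.comp q) := e.surjective.comp (fun x => by
      obtain ⟨g, rfl⟩ := QuotientGroup.mk'_surjective K x
      exact ⟨(g : G ⧸ O), rfl⟩)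
    rw [MonoidHom.range_comp, MonoidHom.range_eq_top.2 hs, ← MonoidHom.range_eq_map,
      Subgroup.range_subtype]

end CfsgLib.BrauerCharacters.DegreeThree
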