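import Cfsg.Agent.Lib.BrauerCharacters.DegreeThree.Closure
import Cfsg.Agent.Lib.PermGroups.Zassenhaus.Main
import Cfsg.Agent.Lib.Cores.PCore
import Cfsg.Agent.Lib.BrauerCharacters.DegreeThree.Groups
import Cfsg.Agent.S0253
import Mathlib.GroupTheory.FixedPointFree
import Mathlib.GroupTheory.Transfer

/-!
# Groups with `χ 1 - χ u = 4` or `χ u = 0` for all nonprincipal irreducible characters

The group is `A₅` or has an abelian odd core with quotient `SL₂(5)`.
-/

set_option autoImplicit false
set_option linter.unusedSectionVars false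

namespace CfsgLib.BrauerCharacters.DegreeThree

open Cfsg CfsgLib.CharTheory
open scoped ComplexConjugate

variable {G : Type*} [Group G] [Fintype G] {u : G}

/-- A nonzero degree three constituent at `u` is trivial on the kernel of the first one. -/
theorem three_descend (h : Hyp u) {θ χ : G → ℂ} (hθ : IsIrrCharacter G θ) (h3 : θ 1 = 3)
    (hθu : θ u = -1) (hχ : IsIrrCharacter G χ) (h3' : χ 1 = 3) (hχu : χ u = -1) {k : G}
    (hk : θ k = 3) : χ k = 3 := by
  classical
  obtain ⟨K, hKn, hK, -⟩ := exists_kernel (irrChar hθ)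
  obtain ⟨K', hKn', hK', -⟩ := exists_kernel (irrChar hχ)
  haveI := hKn
  haveI := hKn'
  let L : Subgroup G := K ⊓ K'
  have huL : u ∉ L := fun hu => by
    have := (hK u).1 (Subgroup.mem_inf.1 hu).1
    rw [hθu, h3] at this
    norm_num at this
  have hu2 : u * u ∈ L := by
    refine Subgroup.mem_inf.2 ⟨(hK _).2 ?_, (hK' _).2 ?_⟩
    · rw [sq_three h.perfect (irrChar hθ) h3, hθu, h3]; simp; norm_num
    · rw [sq_three h.perfect (irrChar hχ) h3', hχu, h3']; simp; norm_num
  haveI : Fintype (G ⧸ L) := Fintype.ofFinite _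
  have hL := h.quotient L huL
  have hL2 : (u : G ⧸ L) * u = 1 := (QuotientGroup.eq_one_iff _).2 hu2
  obtain ⟨a, ha, hθa⟩ := exists_descend hθ L fun g hg => (hK g).1 (Subgroup.mem_inf.1 hg).1
  obtain ⟨b, hb, hχb⟩ := exists_descend hχ L fun g hg => (hK' g).1 (Subgroup.mem_inf.1 hg).2
  have ha3 : a 1 = 3 := by rw [← h3, hθa]; rfl
  have hb3 : b 1 = 3 := by rw [← h3', hχb]; rfl
  obtain ⟨a', X, Y, ta⟩ := exists_tri hL hL2 ha ha3
  obtain ⟨b', X', Y', tb⟩ := exists_tri hL hL2 hb hb3
  obtain ⟨ia, ia', iX, iY⟩ := ta.irr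
  obtain ⟨ib, ib', iX', iY'⟩ := tb.irr
  obtain ⟨da, da', dX, dY⟩ := ta.deg
  obtain ⟨db, db', dX', dY'⟩ := tb.deg
  rw [hχb]
  rw [hθa] at hk
  by_cases hab : b = a
  · rw [hab]; exact hk
  by_cases hab' : b = a'
  · rw [hab']
    have e1 := congrFun ta.sq (k : G ⧸ L)
    have e2 := congrFun ta.mulX (k : G ⧸ L)
    have e3 := congrFun ta.mulθ' (k : G ⧸ L)
    simp only [Pi.mul_apply, Pi.add_apply, one', hk] at e1 e2 e3
    linear_combination (e3 - e2 - 3 * e1) / 4
  exfalso
  have hXX : X ≠ X' := by
    intro e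
    have hr' := tb.real
    have hXa : classInner (X * a) b = 0 := by
      rw [mul_comm, ta.mulX, classInner_add_left, classInner_add_left, classInner_add_left,
        classInner_eq_zero_of_ne ha hb (Ne.symm hab),
        classInner_eq_zero_of_ne ia' hb (Ne.symm hab'), inner_ne iY hb (by rw [dY, db]; norm_num),
        inner_ne iX hb (by rw [dX, db]; norm_num)]
      simp
    have hid : a * X = b * X := by
      have hs : ∀ g, a (g * g) = a g ^ 2 - 2 * a g := fun g => by
        rw [sq_three hL.perfect (irrChar ha) ha3, ta.real]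
      have hs' : ∀ g, b (g * g) = b g ^ 2 - 2 * b g := fun g => by
        rw [sq_three hL.perfect (irrChar hb) hb3, tb.real]
      funext g
      have p1 := congrFun ta.sq g
      have p2 := congrFun ta.sq (g * g)
      have q1 := congrFun tb.sq g
      have q2 := congrFun tb.sq (g * g)
      rw [← e] at q1 q2
      simp only [Pi.mul_apply, Pi.add_apply, one', hs g, hs' g] at p1 p2 q1 q2 ⊢
      have key : ∀ z x y : ℂ, z * z = 1 + z + x →
          (z ^ 2 - 2 * z) * (z ^ 2 - 2 * z) = 1 + (z ^ 2 - 2 * z) + y →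
          z * x = (x ^ 2 - y) / 2 + x := by
        intro z x y h1 h2
        have hx : x = z * z - 1 - z := by linear_combination -h1
        have hy : y = (z ^ 2 - 2 * z) * (z ^ 2 - 2 * z) - 1 - (z ^ 2 - 2 * z) := by
          linear_combination -h2
        rw [hx, hy]; ring
      rw [key _ _ _ p1 p2, key _ _ _ q1 q2]
    rw [mul_comm, hid, e, tb.mulX, classInner_add_left, classInner_add_left, classInner_add_left,
      classInner_self_of_isIrr hb, classInner_eq_zero_of_ne ib' hb tb.ne,
      inner_ne iY' hb (by rw [dY', db]; norm_num),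
      inner_ne iX' hb (by rw [dX', db]; norm_num)] at hXa
    norm_num at hXa
  have hn : classInner (a * b) (a * b) = 1 := by
    have : classInner (a * b) (a * b) = classInner (a * a) (b * b) := by
      simp only [classInner]
      congr 1
      refine Finset.sum_congr rfl fun g _ => ?_
      simp only [Pi.mul_apply, map_mul, ta.real, tb.real]
      ring
    rw [this, ta.sq, tb.sq]
    simp only [classInner_add_left, classInner_add_right, classInner_self_of_isIrr irr_one',
      inner_ne irr_one' hb (by rw [db]; simp [one']), inner_ne irr_one' iX' (by rw [dX']; simp [one']),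
      inner_ne ha irr_one' (by rw [da]; simp [one']), classInner_eq_zero_of_ne ha hb (Ne.symm hab),
      inner_ne ha iX' (by rw [da, dX']; norm_num), inner_ne iX irr_one' (by rw [dX]; simp [one']),
      inner_ne iX hb (by rw [dX, db]; norm_num), classInner_eq_zero_of_ne iX iX' hXX]
    norm_num
  have hirr : IsIrrCharacter (G ⧸ L) (a * b) := isIrrCharacter_of_norm_one
    (CharTheory.IsCharacter.isGeneralizedCharacter (isCharacter_mul (irrChar ha) (irrChar hb))) hn
    (by simp [da, db])
  have hne : a * b ≠ one' (G ⧸ L) := fun e => by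
    have := congrFun e 1
    simp [da, db, one'] at this
    norm_num at this
  rcases hL.vals' hirr hne with e | e <;>
    simp [three_value hL hL2 ha ha3, three_value hL hL2 hb hb3, da, db] at e <;> norm_num at e

/-- The sums over the irreducible characters at `u` only see the quotient by the kernel. -/
theorem sum_quotient (h : Hyp u) {θ : G → ℂ} (hθ : IsIrrCharacter G θ) (h3 : θ 1 = 3)
    (hθu : θ u = -1) (K : Subgroup G) [K.Normal] (hK : ∀ g, g ∈ K ↔ θ g = 3)
    [Fintype (IrrCharacter G)] [Fintype (IrrCharacter (G ⧸ K))] (g : G) :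
    ∑ χ : IrrCharacter G, (χ : G → ℂ) g * conj ((χ : G → ℂ) u) =
      ∑ ψ : IrrCharacter (G ⧸ K), (ψ : G ⧸ K → ℂ) g * conj ((ψ : G ⧸ K → ℂ) u) := by
  classical
  let infl : IrrCharacter (G ⧸ K) → IrrCharacter G := fun ψ =>
    ⟨fun x => (ψ : G ⧸ K → ℂ) x, isIrrCharacter_comp ψ.2 (QuotientGroup.mk'_surjective K)⟩
  have hinj : Function.Injective infl := fun ψ φ e => Subtype.ext (funext fun x => by
    obtain ⟨y, rfl⟩ := QuotientGroup.mk'_surjective K x
    exact congrFun (congrArg Subtype.val e) y)
  have hsup : ∀ χ : IrrCharacter G, χ ∉ Finset.univ.image infl → (χ : G → ℂ) u = 0 := by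
    intro χ hχ
    by_contra hne0
    have hnotK : ¬ ∀ k ∈ K, (χ : G → ℂ) k = (χ : G → ℂ) 1 := fun hk => by
      obtain ⟨ψ, hψ, hψe⟩ := exists_descend χ.2 K hk
      exact hχ (Finset.mem_image.2 ⟨⟨ψ, hψ⟩, Finset.mem_univ _,
        Subtype.ext (funext fun x => (hψe x).symm)⟩)
    have hu0 : (u : G ⧸ K) ≠ 1 := fun e => by
      have := (hK u).1 ((QuotientGroup.eq_one_iff u).1 e)
      rw [hθu] at this; norm_num at this
    have hterm : ∀ φ : IrrCharacter G, φ ∉ Finset.univ.image infl →
        0 ≤ ((φ : G → ℂ) 1 * conj ((φ : G → ℂ) u)).re ∧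
          (((φ : G → ℂ) 1 * conj ((φ : G → ℂ) u)).re = 0 → (φ : G → ℂ) u = 0) := by
      intro φ hφ
      by_cases h0 : (φ : G → ℂ) u = 0
      · simp [h0]
      have hφK : ¬ ∀ k ∈ K, (φ : G → ℂ) k = (φ : G → ℂ) 1 := fun hk => by
        obtain ⟨ψ, hψ, hψe⟩ := exists_descend φ.2 K hk
        exact hφ (Finset.mem_image.2 ⟨⟨ψ, hψ⟩, Finset.mem_univ _,
          Subtype.ext (funext fun x => (hψe x).symm)⟩)
      have hne : (φ : G → ℂ) ≠ one' G := fun e => hφK fun k _ => by rw [e]; rfl
      have hv := (h.vals' φ.2 hne).resolve_right h0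
      obtain ⟨d, hd0, hd⟩ := exists_degree_of_isIrr φ.2
      have h5 : 5 ≤ d := by
        by_contra hlt
        interval_cases d
        · exact hne (eq_one'_of_degree_one h.perfect φ.2 (by simpa using hd))
        · exact h0 (h.degree_two_value φ.2 (by simpa using hd))
        · refine hφK fun k hk => ?_
          rw [hd, Nat.cast_ofNat]
          exact three_descend h hθ h3 hθu φ.2 (by simpa using hd)
            (by rw [hv, hd]; norm_num) ((hK k).1 hk)
        · exact h0 (by rw [hv, hd]; norm_num)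
      have : (5 : ℝ) ≤ d := by exact_mod_cast h5
      rw [h.real_value φ.2, hv, hd]
      refine ⟨?_, fun e => ?_⟩
      · simp; nlinarith
      · simp at e
        rcases e with e | e
        · omega
        · linarith
    have hG := sum_mul_conj (G := G) 1 u
    rw [if_neg fun e => h.ne (isConj_one_right.1 e)] at hG
    have hH := sum_mul_conj (G := G ⧸ K) 1 (u : G ⧸ K)
    rw [if_neg fun e => hu0 (isConj_one_right.1 e)] at hH
    rw [← Finset.sum_compl_add_sum (Finset.univ.image infl),
      Finset.sum_image fun _ _ _ _ e => hinj e] at hG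
    simp only [infl, QuotientGroup.mk_one] at hG
    rw [hH, add_zero] at hG
    have hre := congrArg Complex.re hG
    rw [Complex.re_sum, Complex.zero_re] at hre
    have hz := (Finset.sum_eq_zero_iff_of_nonneg fun φ hφ =>
      (hterm φ (Finset.mem_compl.1 hφ)).1).1 hre χ (Finset.mem_compl.2 hχ)
    exact hne0 ((hterm χ hχ).2 hz)
  rw [← Finset.sum_compl_add_sum (Finset.univ.image infl),
    Finset.sum_image fun _ _ _ _ e => hinj e, Finset.sum_eq_zero, zero_add]
  intro χ hχ
  rw [hsup χ (Finset.mem_compl.1 hχ), map_zero, mul_zero]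

/-- The structural consequences for an element `u`. -/
theorem structure_of_hyp (h : Hyp u) :
    ∃ (K : Subgroup G) (_ : K.Normal), Nonempty (G ⧸ K ≃* alternatingGroup (Fin 5)) ∧ u ∉ K ∧
      u * u ∈ K ∧ Nat.card (Subgroup.centralizer ({u} : Set G)) = 4 ∧
      (∀ g : G, g ∉ K → g * g ∈ K → IsConj u g) ∧
      (∀ g : G, g ∉ K → g * g ∈ K → ∃ v : G, v ∉ K ∧ v * v ∈ K ∧ v * g⁻¹ ∉ K ∧
        (v * g) * (v * g) ∈ K) ∧ (∀ g : G, g ^ 4 ∈ K → g * g ∈ K) := by
  classical
  obtain ⟨θ, hθ, h3, hθu⟩ := h.exists_three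
  obtain ⟨K, hKn, hK', -⟩ := exists_kernel (irrChar hθ)
  haveI := hKn
  have hK : ∀ g, g ∈ K ↔ θ g = 3 := fun g => by rw [hK' g, h3]
  have huK : u ∉ K := fun e => by
    have := (hK u).1 e
    rw [hθu] at this; norm_num at this
  have hu2 : u * u ∈ K := (hK _).2 (by
    rw [sq_three h.perfect (irrChar hθ) h3, hθu]; simp; norm_num)
  haveI : Fintype (G ⧸ K) := Fintype.ofFinite _
  have hH := h.quotient K huK
  have hH2 : (u : G ⧸ K) * u = 1 := (QuotientGroup.eq_one_iff _).2 hu2
  obtain ⟨a, ha, hθa⟩ := exists_descend hθ K fun g hg => (hK' g).1 hg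
  obtain ⟨a', X, Y, t⟩ := exists_tri hH hH2 ha (by rw [← h3, hθa]; rfl)
  have hf : ∀ x : G ⧸ K, a x = 3 → x = 1 := by
    intro x hx
    obtain ⟨g, rfl⟩ := QuotientGroup.mk'_surjective K x
    exact (QuotientGroup.eq_one_iff g).2 ((hK g).2 (by rw [hθa]; exact hx))
  haveI := Fintype.ofFinite (IrrCharacter G)
  haveI := Fintype.ofFinite (IrrCharacter (G ⧸ K))
  have hinv : ∀ g : G, g ∉ K → g * g ∈ K →
      ((g : G ⧸ K)) * g = 1 ∧ (g : G ⧸ K) ≠ 1 := fun g hg hg2 =>
    ⟨(QuotientGroup.eq_one_iff (g * g)).2 hg2, fun e => hg ((QuotientGroup.eq_one_iff g).1 e)⟩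
  have hsum : ∀ g : G, g ∉ K → g * g ∈ K →
      ∑ χ : IrrCharacter G, (χ : G → ℂ) g * conj ((χ : G → ℂ) u) = 4 := by
    intro g hg hg2
    obtain ⟨hg2', hg1⟩ := hinv g hg hg2
    obtain ⟨p1, p2, p3, p4⟩ := values_involution hH hH2 t hf hg2' hg1
    obtain ⟨q1, q2, q3, q4⟩ := values_involution hH hH2 t hf hH2 hH.ne
    rw [sum_quotient h hθ h3 hθu K hK g,
      sum_irr hH hH2 t hf (fun f => f (g : G ⧸ K) * conj (f (u : G ⧸ K))), p1, p2, p3, p4, q1, q2,
      q3, q4, one'_apply, one'_apply]
    simp; norm_num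
  refine ⟨K, hKn, equiv_alternating hH hH2 t hf, huK, hu2, ?_, fun g hg hg2 => ?_,
    fun g hg hg2 => ?_, fun g hg => ?_⟩
  · have h4 := hsum u huK hu2
    rw [sum_mul_conj, if_pos (IsConj.refl u)] at h4
    exact_mod_cast h4
  · by_contra hc
    have h4 := hsum g hg hg2
    rw [sum_mul_conj, if_neg fun e => hc e.symm] at h4
    norm_num at h4
  · obtain ⟨hg2', hg1⟩ := hinv g hg hg2
    obtain ⟨y, hy1, hyg, hy2, hcomm⟩ := exists_commuting hH hH2 t hf hg2' hg1
    obtain ⟨v, rfl⟩ := QuotientGroup.mk'_surjective K y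
    refine ⟨v, fun e => hy1 ((QuotientGroup.eq_one_iff v).2 e),
      (QuotientGroup.eq_one_iff (v * v)).1 hy2, fun e => hyg ?_, (QuotientGroup.eq_one_iff _).1 ?_⟩
    · have : ((v * g⁻¹ : G) : G ⧸ K) = 1 := (QuotientGroup.eq_one_iff _).2 e
      rw [QuotientGroup.mk_mul, QuotientGroup.mk_inv, mul_inv_eq_one] at this
      exact this
    · show (v : G ⧸ K) * g * (v * g) = 1
      have hy2' : (v : G ⧸ K) * v = 1 := hy2
      have hcomm' : (g : G ⧸ K) * v = v * g := hcomm
      calc (v : G ⧸ K) * g * (v * g) = v * (g * v) * g := by group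
        _ = (v * v) * (g * g) := by rw [hcomm']; group
        _ = 1 := by rw [hy2', hg2', one_mul]
  · exact (QuotientGroup.eq_one_iff (g * g)).1
      (no_order_four hH hH2 t hf (w := (g : G ⧸ K)) ((QuotientGroup.eq_one_iff (g ^ 4)).2 hg))

theorem eq_one_of_inverted {α : Type*} [Group α] {u v k : α} (hu : u * k * u⁻¹ = k⁻¹)
    (hv : v * k * v⁻¹ = k⁻¹) (huv : (u * v) * k * (u * v)⁻¹ = k⁻¹) : k * k = 1 := by
  have : (u * v) * k * (u * v)⁻¹ = k := by
    calc (u * v) * k * (u * v)⁻¹ = u * (v * k * v⁻¹) * u⁻¹ := by group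
      _ = u * k⁻¹ * u⁻¹ := by rw [hv]
      _ = (u * k * u⁻¹)⁻¹ := by group
      _ = k := by rw [hu, inv_inv]
  rw [this] at huv
  nth_rewrite 2 [huv]
  exact mul_inv_cancel k

theorem inverts_of_sq {α : Type*} [Group α] {g k : α} (h : (g * k) * (g * k) = g * g) :
    g * k * g⁻¹ = k⁻¹ := by
  have h1 : k * g * k = g := by
    have : g * (k * g * k) = g * g := by rw [← h]; group
    exact mul_left_cancel this
  refine eq_inv_of_mul_eq_one_right ?_
  calc k * (g * k * g⁻¹) = (k * g * k) * g⁻¹ := by group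
    _ = 1 := by rw [h1, mul_inv_cancel]

theorem main (h : Hyp u) :
    IsMulCommutative ↥(oddCore G) ∧
      ((Nonempty (G ⧸ oddCore G ≃* Matrix.ProjectiveSpecialLinearGroup (Fin 2) (ZMod 5)) ∧
          orderOf u = 2) ∨
        (Nonempty (G ⧸ oddCore G ≃* Matrix.SpecialLinearGroup (Fin 2) (ZMod 5)) ∧
          orderOf u = 4)) := by
  classical
  haveI : Fact (Nat.Prime 5) := ⟨Nat.prime_five⟩
  haveI : Fact (Nat.Prime 2) := ⟨Nat.prime_two⟩
  obtain ⟨K, hKn, ⟨e⟩, huK, hu2, hC, hconj, hexv, hsq⟩ := structure_of_hyp h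
  haveI := hKn
  obtain ⟨ψ⟩ := Cfsg.Agent.S0253.result (F := ZMod 5) (ZMod.card 5)
  have hcent : ∀ g : G, g ∉ K → g * g ∈ K →
      Nat.card (Subgroup.centralizer ({g} : Set G)) = 4 := by
    intro g hg hg2
    obtain ⟨c, rfl⟩ := isConj_iff.1 (hconj g hg hg2)
    rw [← hC]
    refine Nat.card_congr (Equiv.subtypeEquiv (MulAut.conj c).toEquiv fun x => ?_).symm
    simp only [Subgroup.mem_centralizer_singleton_iff, MulEquiv.toEquiv_eq_coe,
      MulEquiv.coe_toEquiv, MulAut.conj_apply]
    constructor
    · intro hx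
      calc c * x * c⁻¹ * (c * u * c⁻¹) = c * (x * u) * c⁻¹ := by group
        _ = c * (u * x) * c⁻¹ := by rw [hx]
        _ = c * u * c⁻¹ * (c * x * c⁻¹) := by group
    · intro hx
      calc x * u = c⁻¹ * (c * x * c⁻¹ * (c * u * c⁻¹)) * c := by group
        _ = c⁻¹ * (c * u * c⁻¹ * (c * x * c⁻¹)) * c := by rw [hx]
        _ = u * x := by group
  have horderOf : ∀ g : G, g ∉ K → g * g ∈ K → orderOf g = orderOf u := fun g hg hg2 => by
    obtain ⟨c, rfl⟩ := isConj_iff.1 (hconj g hg hg2)
    exact (MulEquiv.orderOf_eq (MulAut.conj c) u)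
  have hu4 : orderOf u ∣ 4 := by
    rw [← hC, ← Subgroup.orderOf_mk u (Subgroup.mem_centralizer_singleton_iff.2 rfl)]
    exact orderOf_dvd_natCard _
  have huord : orderOf u = 2 ∨ orderOf u = 4 := by
    have h1 : orderOf u ≠ 1 := fun e => h.ne (orderOf_eq_one_iff.1 e)
    have h4 := Nat.le_of_dvd (by norm_num) hu4
    interval_cases (orderOf u) <;> simp_all
  have hodd_le : ∀ N : Subgroup G, N.Normal → Odd (Nat.card N) → N ≤ K := by
    intro N hN hodd g hg
    haveI := hN
    by_contra hgK
    let q := (e : G ⧸ K →* alternatingGroup (Fin 5)).comp (QuotientGroup.mk' K)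
    have hqs : Function.Surjective q := e.surjective.comp (QuotientGroup.mk'_surjective K)
    haveI := hN.map q hqs
    haveI : IsSimpleGroup (alternatingGroup (Fin 5)) := alternatingGroup.isSimpleGroup_five
    rcases (hN.map q hqs).eq_bot_or_eq_top with hb | ht
    · have : q g = 1 := (Subgroup.mem_bot).1 (hb ▸ Subgroup.mem_map_of_mem q hg)
      exact hgK ((QuotientGroup.eq_one_iff g).1 (e.injective (this.trans (map_one _).symm)))
    · have hd := Subgroup.card_map_dvd (H := N) q
      rw [ht, Subgroup.card_top] at hd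
      have h60 : Nat.card (alternatingGroup (Fin 5)) = 60 := by
        rw [Nat.card_eq_fintype_card]; decide
      rw [h60] at hd
      exact (Nat.not_even_iff_odd.2 hodd) (even_iff_two_dvd.2 ((show 2 ∣ 60 by norm_num).trans hd))
  rcases huord with ho | ho
  · -- `u` is an involution: the kernel is trivial
    have hsq1 : ∀ g : G, g ∉ K → g * g ∈ K → g * g = 1 := fun g hg hg2 => by
      have := pow_orderOf_eq_one g
      rw [horderOf g hg hg2, ho, pow_two] at this
      exact this
    obtain ⟨v, hvK, hv2, hvu, huv2⟩ := hexv u huK hu2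
    have hvuK : v * u ∉ K := fun hm => hvu (by
      have : (v * u) * (u * u)⁻¹ ∈ K := K.mul_mem hm (K.inv_mem hu2)
      convert this using 1; group)
    have hinvK : ∀ g : G, g ∉ K → g * g ∈ K → ∀ k ∈ K, g * k * g⁻¹ = k⁻¹ := by
      intro g hg hg2 k hk
      refine inverts_of_sq ?_
      rw [hsq1 g hg hg2]
      refine hsq1 (g * k) (fun hm => hg (by simpa using K.mul_mem hm (K.inv_mem hk))) ?_
      have : (g * k * g⁻¹) * (g * g) * k ∈ K :=
        K.mul_mem (K.mul_mem (hKn.conj_mem k hk g) hg2) hk
      convert this using 1; group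
    have hcom : v * u = u * v := by
      have a1 := hsq1 u huK hu2
      have a2 := hsq1 v hvK hv2
      have a3 := hsq1 (v * u) hvuK huv2
      calc v * u = (v * u)⁻¹ := eq_inv_of_mul_eq_one_left a3
        _ = u⁻¹ * v⁻¹ := mul_inv_rev v u
        _ = u * v := by rw [inv_eq_of_mul_eq_one_right a1, inv_eq_of_mul_eq_one_right a2]
    have hKbot : K = ⊥ := by
      rw [eq_bot_iff]
      intro k hk
      have hk2 := eq_one_of_inverted (hinvK v hvK hv2 k hk) (hinvK u huK hu2 k hk)
        (hinvK (v * u) hvuK huv2 k hk)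
      have hku : k * u = u * k := by
        have h1 := hinvK u huK hu2 k hk
        rw [inv_eq_of_mul_eq_one_right hk2] at h1
        calc k * u = (u * k * u⁻¹) * u := by rw [h1]
          _ = u * k := by group
      let f : Fin 5 → Subgroup.centralizer ({u} : Set G) :=
        ![1, ⟨u, Subgroup.mem_centralizer_singleton_iff.2 rfl⟩,
          ⟨v, Subgroup.mem_centralizer_singleton_iff.2 hcom⟩,
          ⟨v * u, Subgroup.mem_centralizer_singleton_iff.2 (by
            calc v * u * u = (u * v) * u := by rw [hcom]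
              _ = u * (v * u) := mul_assoc _ _ _)⟩,
          ⟨k, Subgroup.mem_centralizer_singleton_iff.2 hku⟩]
      by_contra hk1
      have hk1 : k ≠ 1 := fun e => hk1 (Subgroup.mem_bot.2 e)
      have hu1 := h.ne
      have hinj : Function.Injective f := by
        intro i j hij
        have hij' := congrArg Subtype.val hij
        have n1 : u ≠ v := fun e => hvu (by rw [← e, mul_inv_cancel]; exact K.one_mem)
        have n2 : k ≠ u := fun e => huK (e ▸ hk)
        have n3 : k ≠ v := fun e => hvK (e ▸ hk)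
        have n4 : k ≠ v * u := fun e => hvuK (e ▸ hk)
        have n5 : v * u ≠ 1 := fun e => hvuK (e ▸ K.one_mem)
        have n6 : v ≠ 1 := fun e => hvK (e ▸ K.one_mem)
        have n7 : v * u ≠ u := fun e => n6 (mul_right_cancel (e.trans (one_mul u).symm))
        have n8 : v * u ≠ v := fun e => hu1 (mul_left_cancel (e.trans (mul_one v).symm))
        fin_cases i <;> fin_cases j <;> first
          | rfl | exact absurd hij' hu1 | exact absurd hij'.symm hu1
          | exact absurd hij' n1 | exact absurd hij'.symm n1 | exact absurd hij' n2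
          | exact absurd hij'.symm n2 | exact absurd hij' n3 | exact absurd hij'.symm n3
          | exact absurd hij' n4 | exact absurd hij'.symm n4 | exact absurd hij' n5
          | exact absurd hij'.symm n5 | exact absurd hij' n6 | exact absurd hij'.symm n6
          | exact absurd hij' n7 | exact absurd hij'.symm n7 | exact absurd hij' n8
          | exact absurd hij'.symm n8 | exact absurd hij' hk1 | exact absurd hij'.symm hk1
      have := Nat.card_le_card_of_injective f hinj
      rw [hC, Nat.card_fin] at this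
      omega
    have hcore : oddCore G = ⊥ := by
      rw [eq_bot_iff, ← hKbot]
      exact hodd_le _ inferInstance Cores.odd_card_oddCore
    refine ⟨?_, Or.inl ⟨⟨?_⟩, ho⟩⟩
    · rw [hcore]
      exact ⟨⟨fun a b => Subsingleton.elim _ _⟩⟩
    · exact ((QuotientGroup.quotientMulEquivOfEq (hcore.trans hKbot.symm)).trans e).trans ψ.symm
  · -- `u` has order four
    have hg4 : ∀ g : G, g ∉ K → g * g ∈ K → orderOf g = 4 := fun g hg hg2 =>
      (horderOf g hg hg2).trans ho
    obtain ⟨P, hP⟩ := IsPGroup.exists_le_sylow (p := 2) (P := Subgroup.zpowers u)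
      (IsPGroup.of_card (n := 2) (by rw [Nat.card_zpowers, ho]; norm_num))
    have huP : u ∈ (P : Subgroup G) := hP (Subgroup.mem_zpowers u)
    let PH := P.mapSurjective (QuotientGroup.mk'_surjective K)
    have hPH : Nat.card (PH : Subgroup (G ⧸ K)) = 4 := by
      rw [Sylow.card_eq_multiplicity, Nat.card_congr e.toEquiv,
        show Nat.card (alternatingGroup (Fin 5)) = 60 by rw [Nat.card_eq_fintype_card]; decide]
      have : (60 : ℕ).factorization 2 = 2 := by
        rw [Nat.factorization_def _ Nat.prime_two]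
        rw [show (60 : ℕ) = 2 ^ 2 * 15 by norm_num, padicValNat.mul (by norm_num) (by norm_num),
          padicValNat.prime_pow, padicValNat.eq_zero_of_not_dvd (by norm_num)]
      rw [this]; norm_num
    have hPsq : ∀ g ∈ (P : Subgroup G), g * g ∈ K := by
      intro g hg
      refine hsq g ((QuotientGroup.eq_one_iff (g ^ 4)).1 ?_)
      have hm : (g : G ⧸ K) ∈ (PH : Subgroup (G ⧸ K)) := Subgroup.mem_map_of_mem _ hg
      have := pow_card_eq_one' (x := (⟨_, hm⟩ : (PH : Subgroup (G ⧸ K))))
      rw [hPH] at this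
      exact congrArg Subtype.val this
    obtain ⟨v, hvP, hvK, hvuK⟩ : ∃ v ∈ (P : Subgroup G), v ∉ K ∧ v * u ∉ K := by
      by_contra hc
      push Not at hc
      have hsub : (PH : Subgroup (G ⧸ K)) ≤ Subgroup.zpowers (u : G ⧸ K) := by
        intro x hx
        obtain ⟨g, hg, rfl⟩ := Subgroup.mem_map.1 hx
        by_cases hgK : g ∈ K
        · rw [QuotientGroup.mk'_apply, (QuotientGroup.eq_one_iff g).2 hgK]; exact Subgroup.one_mem _
        · have : ((g * u : G) : G ⧸ K) = 1 := (QuotientGroup.eq_one_iff _).2 (hc g hg hgK)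
          rw [QuotientGroup.mk_mul, mul_eq_one_iff_eq_inv] at this
          rw [QuotientGroup.mk'_apply, this]
          exact Subgroup.inv_mem _ (Subgroup.mem_zpowers _)
      have h1 := Subgroup.card_le_of_le hsub
      have h2 : orderOf (u : G ⧸ K) ≤ 2 := orderOf_le_of_pow_eq_one (by norm_num) (by
        rw [pow_two]; exact (QuotientGroup.eq_one_iff (u * u)).2 hu2)
      rw [hPH, Nat.card_zpowers] at h1
      omega
    let T : Subgroup ↥(P : Subgroup G) := K.subgroupOf (P : Subgroup G)
    have hTne : T ≠ ⊥ := fun e' => by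
      have hm : (⟨u * u, mul_mem huP huP⟩ : ↥(P : Subgroup G)) ∈ T := Subgroup.mem_subgroupOf.2 hu2
      rw [e', Subgroup.mem_bot] at hm
      have h0 : u ^ 2 = 1 := by rw [pow_two]; exact congrArg Subtype.val hm
      have := orderOf_dvd_of_pow_eq_one h0
      rw [ho] at this
      norm_num at this
    obtain ⟨w, hw, hw1⟩ : ∃ w ∈ T ⊓ Subgroup.center ↥(P : Subgroup G), w ≠ 1 := by
      have hp : IsPGroup 2 ↥(P : Subgroup G) := P.isPGroup'
      haveI : T.Normal := inferInstance
      have := inf_center_ne_bot hp T hTne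
      by_contra hc
      push Not at hc
      exact this (eq_bot_iff.2 fun x hx => Subgroup.mem_bot.2 (hc x hx))
    have hwK : (w : G) ∈ K := Subgroup.mem_subgroupOf.1 (Subgroup.mem_inf.1 hw).1
    have hwc : ∀ g ∈ (P : Subgroup G), g * (w : G) = (w : G) * g := fun g hg =>
      congrArg Subtype.val (Subgroup.mem_center_iff.1 (Subgroup.mem_inf.1 hw).2 ⟨g, hg⟩)
    have hw1' : (w : G) ≠ 1 := fun e' => hw1 (Subtype.ext e')
    have hcK : ∀ g : G, g ∉ K → g * g ∈ K → ∀ k ∈ K, g * k = k * g → k = 1 ∨ k = g * g := by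
      intro g hg hg2 k hk hgk
      have hz : Subgroup.zpowers g = Subgroup.centralizer ({g} : Set G) :=
        Subgroup.eq_of_le_of_card_ge
          (Subgroup.zpowers_le.2 (Subgroup.mem_centralizer_singleton_iff.2 rfl))
          (by rw [hcent g hg hg2, Nat.card_zpowers, hg4 g hg hg2])
      have hm : k ∈ Subgroup.zpowers g := hz ▸ Subgroup.mem_centralizer_singleton_iff.2 hgk.symm
      obtain ⟨i, hi, rfl⟩ := mem_zpowers_iff_mem_range_orderOf.1 hm |> Finset.mem_image.1
      rw [Finset.mem_range, hg4 g hg hg2] at hi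
      interval_cases i
      · left; simp
      · exact absurd (by simpa using hk) hg
      · right; exact pow_two g
      · refine absurd ?_ hg
        have : g ^ 3 * (g * g)⁻¹ ∈ K := K.mul_mem hk (K.inv_mem hg2)
        convert this using 1; group
    have hgw : ∀ g ∈ (P : Subgroup G), g ∉ K → g * g = (w : G) := fun g hg hgK =>
      ((hcK g hgK (hPsq g hg) w hwK (hwc g hg)).resolve_left hw1').symm
    have hinvT : ∀ g ∈ (P : Subgroup G), g ∉ K → ∀ k ∈ (P : Subgroup G), k ∈ K →
        g * k * g⁻¹ = k⁻¹ := fun g hg hgK k hk hkK => inverts_of_sq (by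
      rw [hgw (g * k) (mul_mem hg hk) (fun hm => hgK (by simpa using K.mul_mem hm (K.inv_mem hkK))),
        hgw g hg hgK])
    have huw := hgw u huP huK
    have hTsmall : ∀ k ∈ (P : Subgroup G), k ∈ K → k = 1 ∨ k = (w : G) := by
      intro k hk hkK
      have hk2 := eq_one_of_inverted (hinvT v hvP hvK k hk hkK) (hinvT u huP huK k hk hkK)
        (hinvT (v * u) (mul_mem hvP huP) hvuK k hk hkK)
      have h1 := hinvT u huP huK k hk hkK
      rw [inv_eq_of_mul_eq_one_right hk2] at h1
      rw [← huw]
      exact hcK u huK hu2 k hkK (by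
        calc u * k = (u * k * u⁻¹) * u := by group
          _ = k * u := by rw [h1])
    -- the odd part of the kernel
    have hTcard : Nat.card T ≤ 2 := by
      let f : T → Fin 2 := fun x => if ((x : ↥(P : Subgroup G)) : G) = 1 then 0 else 1
      refine (Nat.card_le_card_of_injective f ?_).trans (le_of_eq (by simp))
      intro x y hxy
      have hx := hTsmall _ (x : ↥(P : Subgroup G)).2 (Subgroup.mem_subgroupOf.1 x.2)
      have hy := hTsmall _ (y : ↥(P : Subgroup G)).2 (Subgroup.mem_subgroupOf.1 y.2)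
      refine Subtype.ext (Subtype.ext ?_)
      rcases hx with hx | hx <;> rcases hy with hy | hy <;> simp_all [f]
    obtain ⟨O, hOn, hOK, hOodd, hOi⟩ :=
      exists_odd_part K P hTcard (w : G) hwK hw1'
        (by rw [← huw, ← pow_two, ← pow_two, ← pow_mul]; exact orderOf_dvd_iff_pow_eq_one.1 ho.dvd)
    have hwO : (w : G) ∉ O := fun hm => hw1' (by
      refine orderOf_eq_one_iff.1 (Nat.eq_one_of_dvd_coprimes (a := 2) (b := Nat.card O)
        (Nat.coprime_two_left.2 hOodd) ?_ ?_)
      · refine orderOf_dvd_of_pow_eq_one ?_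
        rw [← huw, ← pow_two, ← pow_mul]
        exact orderOf_dvd_iff_pow_eq_one.1 ho.dvd
      · exact orderOf_dvd_natCard (⟨_, hm⟩ : O) |> fun d => by rwa [Subgroup.orderOf_mk] at d)
    have hcore : oddCore G = O := by
      refine le_antisymm (fun g hg => ?_) (Cores.le_oddCore hOodd)
      have hgK := hodd_le _ inferInstance Cores.odd_card_oddCore hg
      rcases hOi g hgK with hgO | hgO
      · exact hgO
      exfalso
      have hwin : (w : G) ∈ oddCore G := by
        have := (oddCore G).mul_mem hg ((oddCore G).inv_mem (Cores.le_oddCore hOodd hgO))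
        convert this using 1; group
      exact hw1' (orderOf_eq_one_iff.1 (Nat.eq_one_of_dvd_coprimes (a := 2)
        (b := Nat.card (oddCore G)) (Nat.coprime_two_left.2 Cores.odd_card_oddCore)
        (orderOf_dvd_of_pow_eq_one (by
          rw [← huw, ← pow_two, ← pow_mul]; exact orderOf_dvd_iff_pow_eq_one.1 ho.dvd))
        (by simpa [Subgroup.orderOf_mk] using orderOf_dvd_natCard (⟨_, hwin⟩ : oddCore G))))
    -- the odd core is inverted by the involution
    have hfix : ∀ a ∈ O, (w : G) * a = a * (w : G) → a = 1 := by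
      intro a ha hwa
      have key : ∀ g ∈ (P : Subgroup G), g ∉ K → g * a * g⁻¹ = a⁻¹ := by
        intro g hg hgK
        refine inverts_of_sq ?_
        rw [hgw g hg hgK]
        have hga : g * a ∉ K := fun hm => hgK (by simpa using K.mul_mem hm (K.inv_mem (hOK ha)))
        have hga2 : (g * a) * (g * a) ∈ K := by
          have : (g * a * g⁻¹) * (g * g) * a ∈ K :=
            K.mul_mem (K.mul_mem (hKn.conj_mem a (hOK ha) g) (hPsq g hg)) (hOK ha)
          convert this using 1; group
        have h4 : (g * a * (g * a)) * (g * a * (g * a)) = 1 := by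
          have := pow_orderOf_eq_one (g * a)
          rw [hg4 _ hga hga2] at this
          rw [← this]; simp only [pow_succ, pow_zero, one_mul, mul_assoc]
        set b := g⁻¹ * a * g * a with hb
        have hbO : b ∈ O := O.mul_mem (by simpa using hOn.conj_mem a ha g⁻¹) ha
        have hexp : g * a * (g * a) = (w : G) * b := by rw [← hgw g hg hgK, hb]; group
        have hbw : b * (w : G) = (w : G) * b := by
          have c1 : g⁻¹ * (w : G) = (w : G) * g⁻¹ := hwc _ (inv_mem hg)
          have c2 : g * (w : G) = (w : G) * g := hwc g hg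
          calc b * (w : G) = g⁻¹ * a * g * (a * (w : G)) := by rw [hb]; group
            _ = g⁻¹ * a * (g * (w : G)) * a := by rw [← hwa]; group
            _ = g⁻¹ * (a * (w : G)) * g * a := by rw [c2]; group
            _ = (g⁻¹ * (w : G)) * a * g * a := by rw [← hwa]; group
            _ = (w : G) * b := by rw [c1, hb]; group
        rw [hexp] at h4 ⊢
        have hww : (w : G) * (w : G) = 1 := by
          rw [← huw, ← pow_two, ← pow_two, ← pow_mul]; exact orderOf_dvd_iff_pow_eq_one.1 ho.dvd
        have hb2 : b * b = 1 := by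
          calc b * b = ((w : G) * (w : G)) * b * b := by rw [hww, one_mul]
            _ = (w : G) * (b * (w : G)) * b := by rw [hbw]; group
            _ = ((w : G) * b) * ((w : G) * b) := by group
            _ = 1 := h4
        have hb1 : b = 1 := orderOf_eq_one_iff.1 (Nat.eq_one_of_dvd_coprimes (a := 2)
          (b := Nat.card O) (Nat.coprime_two_left.2 hOodd)
          (orderOf_dvd_of_pow_eq_one (by rw [pow_two, hb2]))
          (by simpa [Subgroup.orderOf_mk] using orderOf_dvd_natCard (⟨_, hbO⟩ : O)))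
        rw [hb1, mul_one]
      have ha2 := eq_one_of_inverted (key v hvP hvK) (key u huP huK)
        (key (v * u) (mul_mem hvP huP) hvuK)
      exact orderOf_eq_one_iff.1 (Nat.eq_one_of_dvd_coprimes (a := 2) (b := Nat.card O)
        (Nat.coprime_two_left.2 hOodd) (orderOf_dvd_of_pow_eq_one (by rw [pow_two, ha2]))
        (by simpa [Subgroup.orderOf_mk] using orderOf_dvd_natCard (⟨_, ha⟩ : O)))
    refine ⟨?_, Or.inr ⟨?_, ho⟩⟩
    · rw [hcore]
      let σ : O →* O :=
        { toFun := fun a => ⟨(w : G) * a * (w : G)⁻¹, hOn.conj_mem _ a.2 _⟩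
          map_one' := Subtype.ext (by simp)
          map_mul' := fun a b => Subtype.ext (by simp [mul_assoc]) }
      have hσ : MonoidHom.FixedPointFree σ := fun a ha => Subtype.ext (hfix a a.2 (by
        have := congrArg Subtype.val ha
        calc (w : G) * a = ((w : G) * a * (w : G)⁻¹) * (w : G) := by group
          _ = a * (w : G) := by rw [show (w : G) * a * (w : G)⁻¹ = a from this]))
      have hσ2 : Function.Involutive σ := fun a => Subtype.ext (by
        show (w : G) * ((w : G) * a * (w : G)⁻¹) * (w : G)⁻¹ = a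
        have hww : (w : G) * (w : G) = 1 := by
          rw [← huw, ← pow_two, ← pow_two, ← pow_mul]; exact orderOf_dvd_iff_pow_eq_one.1 ho.dvd
        calc _ = ((w : G) * (w : G)) * a * ((w : G) * (w : G))⁻¹ := by group
          _ = a := by simp [hww])
      exact ⟨⟨fun a b => hσ.commute_all_of_involutive hσ2 a b⟩⟩
    · subst hcore
      exact equiv_sl h.perfect K e hOK hOi hwK hwO
        (by rw [← huw, ← pow_two, ← pow_two, ← pow_mul]; exact orderOf_dvd_iff_pow_eq_one.1 ho.dvd)

end CfsgLib.BrauerCharacters.DegreeThree
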