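import Cfsg.Agent.Lib.CharTheory.Basic
import Cfsg.Agent.Lib.CharTheory.ExteriorSquare

/-!
# The symmetric square of a character

`g ↦ (χ g ^ 2 + χ (g ^ 2)) / 2` is a character: the trace on symmetric matrices.
-/

set_option autoImplicit false
set_option linter.unusedSectionVars false

namespace CfsgLib.BrauerCharacters.DegreeThree

open Cfsg Matrix Module CfsgLib.CharTheory CfsgLib.CharTheory.ExteriorSquare

variable {n : ℕ}

/-- The symmetric matrices. -/
def symm (n : ℕ) : Submodule ℂ (Matrix (Fin n) (Fin n) ℂ) where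
  carrier := {X | Xᵀ = X}
  add_mem' {X Y} hX hY := by
    show (X + Y)ᵀ = X + Y
    rw [transpose_add, hX, hY]
  zero_mem' := by simp
  smul_mem' c X hX := by
    show (c • X)ᵀ = c • X
    rw [transpose_smul, hX]

/-- The projection onto the symmetric matrices. -/
noncomputable def symProj : Matrix (Fin n) (Fin n) ℂ →ₗ[ℂ] Matrix (Fin n) (Fin n) ℂ where
  toFun X := (1 / 2 : ℂ) • (X + Xᵀ)
  map_add' X Y := by rw [transpose_add, ← smul_add]; congr 1; abel
  map_smul' c X := by rw [transpose_smul, ← smul_add, RingHom.id_apply, smul_comm]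

theorem symProj_mem (X : Matrix (Fin n) (Fin n) ℂ) : symProj X ∈ symm n := by
  show ((1 / 2 : ℂ) • (X + Xᵀ))ᵀ = (1 / 2 : ℂ) • (X + Xᵀ)
  rw [transpose_smul, transpose_add, transpose_transpose, add_comm]

theorem symProj_of_mem {X : Matrix (Fin n) (Fin n) ℂ} (hX : X ∈ symm n) : symProj X = X := by
  show (1 / 2 : ℂ) • (X + Xᵀ) = X
  rw [show Xᵀ = X from hX, ← two_smul ℂ X, smul_smul]
  norm_num

theorem congrMap_mem_symm (A : Matrix (Fin n) (Fin n) ℂ) {X : Matrix (Fin n) (Fin n) ℂ}
    (hX : X ∈ symm n) : congrMap A X ∈ symm n := by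
  show (A * X * Aᵀ)ᵀ = A * X * Aᵀ
  rw [transpose_mul, transpose_mul, transpose_transpose, show Xᵀ = X from hX, ← Matrix.mul_assoc]

/-- The trace of `X ↦ A X Aᵀ` on symmetric matrices. -/
theorem trace_symm (A : Matrix (Fin n) (Fin n) ℂ) :
    LinearMap.trace ℂ (symm n) ((congrMap A).restrict fun _ h => congrMap_mem_symm A h) =
      (A.trace ^ 2 + (A * A).trace) / 2 := by
  classical
  have hmem : ∀ X, (congrMap A ∘ₗ symProj) X ∈ symm n := fun X =>
    congrMap_mem_symm A (symProj_mem X)
  have hres : (congrMap A).restrict (fun _ h => congrMap_mem_symm A h) =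
      (congrMap A ∘ₗ symProj).restrict fun X (_ : X ∈ symm n) => hmem X := by
    refine LinearMap.ext fun X => Subtype.ext ?_
    show congrMap A X = congrMap A (symProj X)
    rw [symProj_of_mem X.2]
  rw [hres, LinearMap.trace_restrict_eq_of_forall_mem (symm n) _ hmem,
    LinearMap.trace_eq_matrix_trace ℂ (Matrix.stdBasis ℂ (Fin n) (Fin n))]
  have hd : ∀ i j, LinearMap.toMatrix (Matrix.stdBasis ℂ (Fin n) (Fin n))
      (Matrix.stdBasis ℂ (Fin n) (Fin n))
      (congrMap A ∘ₗ symProj) (i, j) (i, j) = (A i i * A j j + A i j * A j i) / 2 := by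
    intro i j
    have hrepr : ∀ X : Matrix (Fin n) (Fin n) ℂ,
        (Matrix.stdBasis ℂ (Fin n) (Fin n)).repr X (i, j) = X i j := fun X => by
      simp [Matrix.stdBasis]
    rw [LinearMap.toMatrix_apply, hrepr, Matrix.stdBasis_eq_single, LinearMap.comp_apply]
    show (A * ((1 / 2 : ℂ) • (single i j (1 : ℂ) + (single i j (1 : ℂ))ᵀ)) * Aᵀ :
      Matrix (Fin n) (Fin n) ℂ) i j = _
    rw [transpose_single, Matrix.mul_smul, Matrix.smul_mul, Matrix.smul_apply, Matrix.mul_add,
      Matrix.add_mul, Matrix.add_apply]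
    simp [Matrix.mul_apply, Matrix.single_apply, ite_and]
    ring
  rw [Matrix.trace, Fintype.sum_prod_type]
  simp only [Matrix.diag_apply, hd, add_div, Finset.sum_add_distrib, ← Finset.sum_div,
    ← Finset.mul_sum, ← Finset.sum_mul]
  rw [sq]
  simp [Matrix.trace, Matrix.mul_apply]

variable {G : Type*} [Group G]

/-- The symmetric square of a character is a character. -/
theorem isCharacter_symSquare {χ : G → ℂ} (h : IsCharacter G χ) :
    IsCharacter G (fun g => (χ g ^ 2 + χ (g * g)) / 2) := by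
  obtain ⟨n, ρ, rfl⟩ := h
  let A : G → Matrix (Fin n) (Fin n) ℂ := fun g => LinearMap.toMatrix' (ρ g)
  have hA1 : A 1 = 1 := by simp [A]
  have hAm : ∀ g h, A (g * h) = A g * A h := fun g h => by
    simp [A, Module.End.mul_eq_comp, LinearMap.toMatrix'_comp]
  have htr : ∀ g, ρ.character g = (A g).trace := fun g => by
    rw [Representation.character, LinearMap.trace_eq_matrix_trace ℂ (Pi.basisFun ℂ (Fin n))]
    simp [A, LinearMap.toMatrix_eq_toMatrix']
  let σ : Representation ℂ G (symm n) :=
    { toFun := fun g => (congrMap (A g)).restrict fun _ h => congrMap_mem_symm (A g) h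
      map_one' := LinearMap.ext fun X => Subtype.ext (by
        show A 1 * (X : Matrix (Fin n) (Fin n) ℂ) * (A 1)ᵀ = X
        simp [hA1])
      map_mul' := fun g h => LinearMap.ext fun X => Subtype.ext (by
        show A (g * h) * (X : Matrix (Fin n) (Fin n) ℂ) * (A (g * h))ᵀ =
          A g * (A h * X * (A h)ᵀ) * (A g)ᵀ
        simp [hAm, transpose_mul, Matrix.mul_assoc]) }
  have : σ.character = fun g => (ρ.character g ^ 2 + ρ.character (g * g)) / 2 := funext fun g => by
    rw [htr, htr, hAm, ← trace_symm]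
    rfl
  exact this ▸ isCharacter_character σ

end CfsgLib.BrauerCharacters.DegreeThree
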