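import Cfsg.Agent.Lib.BrauerCharacters.DegreeThree.SymSquare
import Cfsg.Agent.Lib.CharTheory.Decomp
import Cfsg.Agent.Lib.CharTheory.Inflation
import Cfsg.Agent.Lib.CharTheory.Orthogonality
import Cfsg.Agent.Lib.CharTheory.Linear
import Cfsg.Agent.Lib.CharTheory.Values
import Mathlib.LinearAlgebra.Charpoly.Basic

/-!
# Groups with an element `u` such that `χ 1 - χ u = 4` or `χ u = 0`: basic tools
-/

set_option autoImplicit false
set_option linter.unusedSectionVars false

namespace CfsgLib.BrauerCharacters.DegreeThree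

open Cfsg CfsgLib.CharTheory
open scoped ComplexConjugate

variable {G : Type*} [Group G]

/-- Every nonprincipal irreducible `χ` has `χ 1 - χ u = 4` or `χ u = 0`. -/
structure Hyp (u : G) : Prop where
  ne : u ≠ 1
  vals : ∀ χ : IrrCharacter G, (χ : G → ℂ) ≠ (fun _ => (1 : ℂ)) →
    ((χ : G → ℂ) 1 - (χ : G → ℂ) u = 4 ∨ (χ : G → ℂ) u = 0)

theorem classFun {f : G → ℂ} (h : IsCharacter G f) : IsClassFunction G f :=
  CharTheory.IsCharacter.isClassFunction h

theorem irrChar {f : G → ℂ} (h : IsIrrCharacter G f) : IsCharacter G f :=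
  CharTheory.IsIrrCharacter.isCharacter h

theorem conj_degree {f : G → ℂ} (h : IsCharacter G f) : conj (f 1) = f 1 := by
  obtain ⟨n, hn⟩ := exists_degree_of_isCharacter h
  rw [hn, map_natCast]

/-- The principal character. -/
def one' (G : Type*) : G → ℂ := fun _ => 1

theorem irr_one' : IsIrrCharacter G (one' G) := isIrrCharacter_one

theorem one'_apply (g : G) : one' G g = 1 := rfl

theorem mul_one' (f : G → ℂ) : f * one' G = f := funext fun _ => mul_one _

theorem one'_mul (f : G → ℂ) : one' G * f = f := funext fun _ => one_mul _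

section Inner

variable [Fintype G]

/-- A function with real values moves across the inner product. -/
theorem inner_move (f k h : G → ℂ) (hh : ∀ g, conj (h g) = h g) :
    classInner (f * h) k = classInner f (h * k) := by
  simp only [classInner]
  congr 1
  refine Finset.sum_congr rfl fun g _ => ?_
  rw [Pi.mul_apply, Pi.mul_apply, map_mul, hh]
  ring

/-- Moving a function across the inner product. -/
theorem inner_move_conj (f k h : G → ℂ) :
    classInner (f * h) k = classInner f ((fun g => conj (h g)) * k) := by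
  simp only [classInner]
  congr 1
  refine Finset.sum_congr rfl fun g _ => ?_
  rw [Pi.mul_apply, Pi.mul_apply, map_mul, Complex.conj_conj]
  ring

theorem inner_ne {f k : G → ℂ} (hf : IsIrrCharacter G f) (hk : IsIrrCharacter G k) (h : f 1 ≠ k 1) :
    classInner f k = 0 :=
  classInner_eq_zero_of_ne hf hk fun e => h (congrFun e 1)

theorem inner_comm_irr {f k : G → ℂ} (hf : IsIrrCharacter G f) (hk : IsIrrCharacter G k) :
    classInner f k = classInner k f := by
  by_cases h : f = k
  · rw [h]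
  · rw [classInner_eq_zero_of_ne hf hk h, classInner_eq_zero_of_ne hk hf (Ne.symm h)]

theorem eq_of_inner {f k : G → ℂ} (hf : IsIrrCharacter G f) (hk : IsIrrCharacter G k)
    (h : classInner f k ≠ 0) : f = k := by
  by_contra hne
  exact h (classInner_eq_zero_of_ne hf hk hne)

theorem inner_nat {f ψ : G → ℂ} (hf : IsCharacter G f) (hψ : IsIrrCharacter G ψ) :
    ∃ k : ℕ, classInner f ψ = k :=
  CharTheory.IsCharacter.exists_classInner_eq_nat hf ⟨ψ, hψ⟩

theorem isCharacter_sub {f ψ : G → ℂ} (hf : IsCharacter G f) (hψ : IsIrrCharacter G ψ)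
    (h : classInner f ψ ≠ 0) : IsCharacter G (f - ψ) := by
  classical
  haveI := Fintype.ofFinite (IrrCharacter G)
  obtain ⟨m, rfl⟩ := CharTheory.IsCharacter.exists_sum hf
  rw [classInner_sum_irr (fun φ => (m φ : ℂ)) ⟨ψ, hψ⟩] at h
  have h1 : 1 ≤ m ⟨ψ, hψ⟩ := Nat.one_le_iff_ne_zero.2 fun e => h (by simp [e])
  refine isCharacter_iff_exists_sum.2 ⟨fun φ => m φ - if φ = ⟨ψ, hψ⟩ then 1 else 0, ?_⟩
  have hsingle : ψ = ∑ φ : IrrCharacter G,
      (if φ = ⟨ψ, hψ⟩ then (1 : ℂ) else 0) • (φ : G → ℂ) := by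
    simp
  conv_lhs => arg 2; rw [hsingle]
  rw [← Finset.sum_sub_distrib]
  refine Finset.sum_congr rfl fun φ _ => ?_
  rw [← sub_smul]
  congr 1
  split_ifs with e
  · subst e; simp [Nat.cast_sub h1]
  · simp [e]

theorem exists_constituent {f : G → ℂ} (hf : IsCharacter G f) (h : f 1 ≠ 0) :
    ∃ ψ, IsIrrCharacter G ψ ∧ classInner f ψ ≠ 0 := by
  classical
  haveI := Fintype.ofFinite (IrrCharacter G)
  by_contra hc
  push Not at hc
  refine h ?_
  rw [congrFun (eq_sum_classInner (classFun hf)) 1]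
  simp [fun χ : IrrCharacter G => hc _ χ.2]

end Inner

theorem eq_zero_of_degree [Finite G] {f : G → ℂ} (hf : IsCharacter G f) (h : f 1 = 0) : f = 0 := by
  funext g
  have := CharTheory.IsCharacter.norm_le hf g
  simp [h] at this
  simpa using this

section Perfect

variable [Finite G] (hperf : commutator G = ⊤)
include hperf

theorem hom_eq_one {M : Type*} [CommMonoid M] (f : G →* M) (g : G) : f g = 1 := by
  have h : f.toHomUnits = 1 := by
    rw [← MonoidHom.ker_eq_top_iff, eq_top_iff, ← hperf]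
    exact Abelianization.commutator_subset_ker _
  have := congrArg (fun φ : G →* Mˣ => ((φ g : Mˣ) : M)) h
  simpa using this

theorem eq_one'_of_degree_one {χ : G → ℂ} (hχ : IsIrrCharacter G χ) (h1 : χ 1 = 1) :
    χ = one' G := by
  obtain ⟨μ, hμ⟩ := exists_hom_of_degree_one hχ h1
  funext g
  rw [congrFun hμ g, hom_eq_one hperf μ g]
  rfl

theorem exists_eigen {χ : G → ℂ} (hχ : IsCharacter G χ) {d : ℕ} (hd : χ 1 = d) (g : G) :
    ∃ μ : Fin d → ℂ, ∏ i, μ i = 1 ∧ (∀ i, ‖μ i‖ = 1) ∧
      χ g = ∑ i, μ i ∧ χ (g * g) = ∑ i, μ i ^ 2 := by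
  classical
  obtain ⟨n, ρ, rfl⟩ := hχ
  obtain ⟨ι, hι, b, μ, hcard, hμ, hb, hchar⟩ := exists_eigenbasis ρ g
  have hn : Fintype.card ι = d := by
    rw [hcard]
    rw [ρ.char_one] at hd
    exact_mod_cast hd
  have hdet : ∏ i, μ i = 1 := by
    have hM : LinearMap.toMatrix b b (ρ g) = Matrix.diagonal μ := by
      ext i j
      have := hb 1 j
      simp only [pow_one] at this
      rw [LinearMap.toMatrix_apply, this, map_smul, Finsupp.smul_apply, b.repr_self,
        Matrix.diagonal_apply]
      by_cases e : j = i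
      · subst e; simp
      · simp [e, Ne.symm e]
    have h1 := hom_eq_one hperf (LinearMap.det.comp ρ) g
    rw [MonoidHom.comp_apply, ← LinearMap.det_toMatrix b, hM, Matrix.det_diagonal] at h1
    exact h1
  let e : Fin d ≃ ι := (Fintype.equivFinOfCardEq hn).symm
  refine ⟨μ ∘ e, (Equiv.prod_comp e μ).trans hdet,
    fun i => Complex.norm_eq_one_of_pow_eq_one (hμ _) (orderOf_pos g).ne', ?_, ?_⟩
  · have := hchar 1
    simp only [pow_one] at this
    exact this.trans (Equiv.sum_comp e μ).symm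
  · rw [← pow_two, hchar 2]
    exact (Equiv.sum_comp e fun i => μ i ^ 2).symm

/-- `∧² θ = θ̄` in degree three. -/
theorem sq_three {θ : G → ℂ} (hθ : IsCharacter G θ) (h3 : θ 1 = 3) (g : G) :
    θ (g * g) = θ g ^ 2 - 2 * conj (θ g) := by
  obtain ⟨μ, hp, hn, h1, h2⟩ := exists_eigen hperf hθ (d := 3) (by exact_mod_cast h3) g
  rw [Fin.prod_univ_three] at hp
  rw [Fin.sum_univ_three] at h1 h2
  rw [h1, h2, map_add, map_add, ← Complex.inv_eq_conj (hn 0), ← Complex.inv_eq_conj (hn 1),
    ← Complex.inv_eq_conj (hn 2)]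
  have h0 : μ 0 ≠ 0 := fun e => by simpa [e] using hn 0
  have h1' : μ 1 ≠ 0 := fun e => by simpa [e] using hn 1
  have h2' : μ 2 ≠ 0 := fun e => by simpa [e] using hn 2
  field_simp
  linear_combination (-2 * (μ 1 * μ 2 + μ 0 * μ 2 + μ 0 * μ 1)) * hp

theorem sq_two {θ : G → ℂ} (hθ : IsCharacter G θ) (h2d : θ 1 = 2) (g : G) :
    θ (g * g) = θ g ^ 2 - 2 := by
  obtain ⟨μ, hp, hn, h1, h2⟩ := exists_eigen hperf hθ (d := 2) (by exact_mod_cast h2d) g
  rw [Fin.prod_univ_two] at hp
  rw [Fin.sum_univ_two] at h1 h2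
  rw [h1, h2]
  linear_combination (-2 : ℂ) * hp

end Perfect

namespace Hyp

variable [Finite G] {u : G} (h : Hyp u)
include h

theorem normal_eq_top (N : Subgroup G) [N.Normal] (hN : u ∈ N) : N = ⊤ := by
  by_contra hne
  obtain ⟨x, hx⟩ : ∃ x : G ⧸ N, x ≠ 1 := by
    obtain ⟨g, hg⟩ : ∃ g, g ∉ N := by
      by_contra hc; push Not at hc; exact hne (eq_top_iff.2 fun g _ => hc g)
    exact ⟨g, fun e => hg ((QuotientGroup.eq_one_iff g).1 e)⟩
  obtain ⟨ψ, hψ⟩ := exists_irr_apply_ne hx
  let χ : IrrCharacter G := ⟨fun g => (ψ : G ⧸ N → ℂ) g,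
    isIrrCharacter_comp ψ.2 (QuotientGroup.mk'_surjective N)⟩
  have hu1 : ((u : G ⧸ N)) = 1 := (QuotientGroup.eq_one_iff u).2 hN
  have hne1 : (χ : G → ℂ) ≠ fun _ => 1 := by
    intro e
    refine hψ ?_
    obtain ⟨g, rfl⟩ := QuotientGroup.mk'_surjective N x
    have e1 := congrFun e g
    have e2 := congrFun e 1
    simp only [χ] at e1 e2
    exact e1.trans e2.symm
  rcases h.vals χ hne1 with e | e
  · simp [χ, hu1] at e
  · simp [χ, hu1] at e
    exact apply_one_ne_zero_of_isIrr ψ.2 e

theorem perfect : commutator G = ⊤ := by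
  have key : ∀ μ : G →* ℂˣ, μ = 1 := by
    intro μ
    by_contra hμ
    have hne : (fun g => (μ g : ℂ)) ≠ fun _ => 1 := fun e =>
      hμ (MonoidHom.ext fun g => Units.ext (congrFun e g))
    have hn : ‖(μ u : ℂ)‖ = 1 := by
      refine Complex.norm_eq_one_of_pow_eq_one ?_ (orderOf_pos u).ne'
      rw [← Units.val_pow_eq_pow_val, ← map_pow, pow_orderOf_eq_one, map_one, Units.val_one]
    rcases h.vals ⟨_, isIrrCharacter_linear μ⟩ hne with e | e
    · have h3 : (μ u : ℂ) = -3 := by
        simp only [map_one, Units.val_one] at e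
        linear_combination -e
      rw [h3] at hn
      norm_num at hn
    · exact Units.ne_zero _ e
  refine h.normal_eq_top _ ((QuotientGroup.eq_one_iff u).1 ?_)
  by_contra hne
  letI : CommGroup (G ⧸ commutator G) := Abelianization.commGroup (G := G)
  haveI : HasEnoughRootsOfUnity ℂ (Monoid.exponent (G ⧸ commutator G)) :=
    haveI : NeZero (Monoid.exponent (G ⧸ commutator G)) :=
      ⟨Monoid.exponent_ne_zero_of_finite⟩
    inferInstance
  obtain ⟨φ, hφ⟩ := CommGroup.exists_apply_ne_one_of_hasEnoughRootsOfUnity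
    (G ⧸ commutator G) ℂ hne
  exact hφ (congrArg (fun f : G →* ℂˣ => f u) (key (φ.comp (QuotientGroup.mk' _))))

theorem vals' {χ : G → ℂ} (hχ : IsIrrCharacter G χ) (hne : χ ≠ one' G) :
    χ u = χ 1 - 4 ∨ χ u = 0 := by
  rcases h.vals ⟨χ, hχ⟩ hne with e | e
  · left; linear_combination -e
  · exact Or.inr e

theorem real_value {χ : G → ℂ} (hχ : IsIrrCharacter G χ) : conj (χ u) = χ u := by
  by_cases hne : χ = one' G
  · rw [hne]; simp [one']
  rcases h.vals' hχ hne with e | e
  · rw [e, map_sub, conj_degree (irrChar hχ), map_ofNat]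
  · rw [e, map_zero]

theorem degree_two_value {χ : G → ℂ} (hχ : IsIrrCharacter G χ) (h2 : χ 1 = 2) : χ u = 0 := by
  have hne : χ ≠ one' G := fun e => by rw [e, one'_apply] at h2; norm_num at h2
  rcases h.vals' hχ hne with e | e
  swap
  · exact e
  exfalso
  rw [h2] at e
  obtain ⟨n, ρ, hρ, rfl⟩ := hχ
  have hfin : Module.finrank ℂ (Fin n → ℂ) = 2 := by
    rw [ρ.char_one] at h2
    exact_mod_cast h2
  obtain ⟨ω, hω, -⟩ := exists_smul_of_norm_character ρ u (by rw [e, hfin]; norm_num)
  let Z : Subgroup G :=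
    { carrier := {g | ∀ x, ρ (g * x) = ρ (x * g)}
      one_mem' := fun x => by simp
      mul_mem' := fun {a b} ha hb x => by
        rw [mul_assoc, map_mul, hb, ← map_mul, ← mul_assoc, map_mul, ha, ← map_mul, mul_assoc]
      inv_mem' := fun {a} ha x => by
        have : ρ (x * a⁻¹) = ρ a⁻¹ * (ρ (a * x) * ρ a⁻¹) := by
          rw [← map_mul, ← map_mul]; congr 1; group
        rw [this, ha, ← map_mul, ← map_mul]; congr 1; group }
  haveI : Z.Normal := ⟨fun a ha g x => by
    have : ρ (g * a * g⁻¹ * x) = ρ g * ρ (a * (g⁻¹ * x)) := by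
      rw [← map_mul]; congr 1; group
    rw [this, ha, ← map_mul]
    have h2 : ρ (x * (g * a * g⁻¹)) = ρ (x * g * a) * ρ g⁻¹ := by
      rw [← map_mul]; congr 1; group
    have h3 := ha (x * g)
    rw [h2, ← h3, ← map_mul]
    have h4 := ha (g⁻¹ * (x * g))
    rw [show g * (g⁻¹ * x * a) = x * a by group, ← ha x]
    congr 1
    group⟩
  have hu : u ∈ Z := fun x => by rw [map_mul, map_mul, hω]; ext v; simp
  have hZ := h.normal_eq_top Z hu
  have hall : ∀ g, ρ g = 1 := by
    intro g
    have hle : commutator G ≤ ρ.ker := by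
      rw [commutator_def, Subgroup.commutator_le]
      intro a _ b _
      rw [MonoidHom.mem_ker, commutatorElement_def]
      have hab : ρ (a * b) = ρ (b * a) := (hZ.ge (Subgroup.mem_top a) : a ∈ Z) b
      rw [show a * b * a⁻¹ * b⁻¹ = a * b * (b * a)⁻¹ by group, map_mul, hab, ← map_mul,
        mul_inv_cancel, map_one]
    exact MonoidHom.mem_ker.1 ((h.perfect ▸ hle) (Subgroup.mem_top g))
  haveI := Fintype.ofFinite G
  have h4 := classInner_self_of_isIrr (χ := ρ.character) ⟨n, ρ, hρ, rfl⟩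
  have hc : ρ.character = fun _ => (2 : ℂ) := funext fun g => by
    simp [Representation.character, hall g, hfin]
  rw [hc, classInner] at h4
  have hG : (Nat.card G : ℂ) ≠ 0 := by exact_mod_cast Nat.card_pos.ne'
  simp [← Nat.card_eq_fintype_card, map_ofNat] at h4
  field_simp at h4
  norm_num at h4

/-- Some irreducible character of degree three has value `-1` at `u`. -/
theorem exists_three : ∃ θ : G → ℂ, IsIrrCharacter G θ ∧ θ 1 = 3 ∧ θ u = -1 := by
  classical
  haveI := Fintype.ofFinite G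
  haveI := Fintype.ofFinite (IrrCharacter G)
  by_contra hc
  push Not at hc
  have hsum := sum_degree_mul (G := G) u
  rw [if_neg h.ne] at hsum
  have hre : ∀ χ : IrrCharacter G,
      (if (χ : G → ℂ) = one' G then (1 : ℝ) else 0) ≤ ((χ : G → ℂ) 1 * (χ : G → ℂ) u).re := by
    intro χ
    by_cases e : (χ : G → ℂ) = one' G
    · simp [e, one']
    rw [if_neg e]
    obtain ⟨d, hd0, hd⟩ := exists_degree_of_isIrr χ.2
    rcases h.vals' χ.2 e with hv | hv
    swap
    · simp [hv]
    rw [hv, hd]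
    have h4 : 4 ≤ d := by
      by_contra hlt
      interval_cases d
      · exact e (eq_one'_of_degree_one h.perfect χ.2 (by simpa using hd))
      · have := h.degree_two_value χ.2 (by simpa using hd)
        rw [hv, hd] at this
        norm_num at this
      · exact hc _ χ.2 (by simpa using hd) (by rw [hv, hd]; norm_num)
    have : (4 : ℝ) ≤ d := by exact_mod_cast h4
    simp
    nlinarith
  have h1 : (1 : ℝ) ≤ ∑ χ : IrrCharacter G, ((χ : G → ℂ) 1 * (χ : G → ℂ) u).re := by
    refine le_trans ?_ (Finset.sum_le_sum fun χ _ => hre χ)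
    refine le_trans (le_of_eq ?_) (Finset.single_le_sum (fun χ _ => by positivity)
      (Finset.mem_univ (⟨one' G, irr_one'⟩ : IrrCharacter G)))
    simp
  rw [← Complex.re_sum, hsum] at h1
  norm_num at h1

/-- The hypothesis passes to quotients by proper normal subgroups. -/
theorem quotient (N : Subgroup G) [N.Normal] (hN : u ∉ N) : Hyp (u : G ⧸ N) := by
  refine ⟨fun e => hN ((QuotientGroup.eq_one_iff u).1 e), fun ψ hψ => ?_⟩
  refine h.vals ⟨fun g => (ψ : G ⧸ N → ℂ) g,
    isIrrCharacter_comp ψ.2 (QuotientGroup.mk'_surjective N)⟩ fun e => hψ (funext fun x => ?_)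
  obtain ⟨g, rfl⟩ := QuotientGroup.mk'_surjective N x
  exact congrFun e g

end Hyp

end CfsgLib.BrauerCharacters.DegreeThree
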