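import Cfsg.Agent.Lib.BrauerCharacters.DegreeThree.Tools

/-!
# The constituents of the tensor powers of a character of degree three

Under the hypothesis, a character of degree three of a group with `u * u = 1` is real and its
tensor powers involve only five irreducible characters.
-/

set_option autoImplicit false
set_option linter.unusedSectionVars false

namespace CfsgLib.BrauerCharacters.DegreeThree

open Cfsg CfsgLib.CharTheory
open scoped ComplexConjugate

variable {G : Type*} [Group G] [Fintype G] {u : G}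

/-- The relations between `θ` and the companions `θ'`, `X`, `Y`. -/
structure Tri (θ θ' X Y : G → ℂ) : Prop where
  irr : IsIrrCharacter G θ ∧ IsIrrCharacter G θ' ∧ IsIrrCharacter G X ∧ IsIrrCharacter G Y
  deg : θ 1 = 3 ∧ θ' 1 = 3 ∧ X 1 = 5 ∧ Y 1 = 4
  at_u : θ' u = -1
  ne : θ' ≠ θ
  real : ∀ g, conj (θ g) = θ g
  sq : θ * θ = one' G + θ + X
  mulX : θ * X = θ + θ' + Y + X
  mulθ' : θ * θ' = X + Y

theorem value_involution (hperf : commutator G = ⊤) {θ : G → ℂ} (hθ : IsCharacter G θ)
    (h3 : θ 1 = 3) {x : G} (hx : x * x = 1) : θ x = 3 ∨ θ x = -1 := by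
  have h := sq_three hperf hθ h3 x
  have hreal : conj (θ x) = θ x := by
    obtain ⟨n, ρ, rfl⟩ := hθ
    rw [← character_inv, inv_eq_of_mul_eq_one_right hx]
  rw [hx, h3, hreal] at h
  have : (θ x - 3) * (θ x + 1) = 0 := by linear_combination -h
  rcases mul_eq_zero.1 this with e | e
  · left; linear_combination e
  · right; linear_combination e

section

variable (h : Hyp u) (hu2 : u * u = 1)
include h hu2

theorem three_value {θ : G → ℂ} (hθ : IsIrrCharacter G θ) (h3 : θ 1 = 3) : θ u = -1 := by
  rcases value_involution h.perfect (irrChar hθ) h3 hu2 with e | e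
  · have hne : θ ≠ one' G := fun e' => by rw [e', one'_apply] at h3; norm_num at h3
    rcases h.vals' hθ hne with e' | e'
    · rw [e, h3] at e'; norm_num at e'
    · rw [e] at e'; norm_num at e'
  · exact e

theorem no_two {χ : G → ℂ} (hχ : IsIrrCharacter G χ) : χ 1 ≠ 2 := by
  intro h2
  have hs := sq_two h.perfect (irrChar hχ) h2 u
  rw [hu2, h2, h.degree_two_value hχ h2] at hs
  norm_num at hs

theorem three_le {χ : G → ℂ} (hχ : IsIrrCharacter G χ) (hne : χ ≠ one' G) :
    ∃ d : ℕ, χ 1 = d ∧ 3 ≤ d := by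
  obtain ⟨d, hd0, hd⟩ := exists_degree_of_isIrr hχ
  refine ⟨d, hd, ?_⟩
  by_contra hlt
  interval_cases d
  · exact hne (eq_one'_of_degree_one h.perfect hχ (by simpa using hd))
  · exact no_two h hu2 hχ (by simpa using hd)

/-- A constituent leaves a character of smaller degree. -/
theorem split {f : G → ℂ} {n : ℕ} (hf : IsCharacter G f) (hn : f 1 = n) {ψ : G → ℂ}
    (hψ : IsIrrCharacter G ψ) (hψ0 : classInner f ψ ≠ 0) :
    ∃ d m : ℕ, ψ 1 = d ∧ (f - ψ) 1 = m ∧ d + m = n ∧ IsCharacter G (f - ψ) := by
  have hc := isCharacter_sub hf hψ hψ0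
  obtain ⟨d, -, hd⟩ := exists_degree_of_isIrr hψ
  obtain ⟨m, hm⟩ := exists_degree_of_isCharacter hc
  refine ⟨d, m, hd, hm, ?_, hc⟩
  rw [Pi.sub_apply, hn, hd] at hm
  have : (n : ℂ) = (d : ℂ) + m := by linear_combination hm
  exact_mod_cast this.symm

/-- A small character without trivial constituent is irreducible. -/
theorem irr_of_small {f : G → ℂ} {n : ℕ} (hf : IsCharacter G f) (hn : f 1 = n) (h3 : 3 ≤ n)
    (h5 : n ≤ 5) (h1 : classInner f (one' G) = 0) : IsIrrCharacter G f := by
  obtain ⟨ψ, hψ, hψ0⟩ := exists_constituent hf (by rw [hn]; exact_mod_cast (by omega : n ≠ 0))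
  have hne : ψ ≠ one' G := fun e => hψ0 (e ▸ h1)
  obtain ⟨d, hd, hd3⟩ := three_le h hu2 hψ hne
  obtain ⟨d', m, hd', hm, hdm, hc⟩ := split h hu2 hf hn hψ hψ0
  have : d' = d := by rw [hd] at hd'; exact_mod_cast hd'.symm
  by_cases hm0 : m = 0
  · have := eq_zero_of_degree hc (by rw [hm, hm0]; simp)
    rw [sub_eq_zero] at this
    exact this ▸ hψ
  exfalso
  obtain ⟨φ, hφ, hφ0⟩ := exists_constituent hc (by rw [hm]; exact_mod_cast hm0)
  have hφne : φ ≠ one' G := fun e => hφ0 (by
    rw [e, classInner_sub_left, h1, classInner_eq_zero_of_ne hψ irr_one' hne, sub_zero])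
  obtain ⟨e, he, he3⟩ := three_le h hu2 hφ hφne
  obtain ⟨e', r, he', -, her, -⟩ := split h hu2 hc hm hφ hφ0
  have : e' = e := by rw [he] at he'; exact_mod_cast he'.symm
  omega

/-- A character with negative value at `u` has a constituent of degree three. -/
theorem exists_three_part {f : G → ℂ} (hf : IsCharacter G f) (hneg : (f u).re < 0) :
    ∃ ψ, IsIrrCharacter G ψ ∧ classInner f ψ ≠ 0 ∧ ψ 1 = 3 := by
  classical
  haveI := Fintype.ofFinite (IrrCharacter G)
  obtain ⟨m, rfl⟩ := CharTheory.IsCharacter.exists_sum hf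
  by_contra hc
  push Not at hc
  refine absurd hneg (not_lt.2 ?_)
  simp only [Finset.sum_apply, Pi.smul_apply, smul_eq_mul, Complex.re_sum]
  refine Finset.sum_nonneg fun χ _ => ?_
  by_cases hm : m χ = 0
  · simp [hm]
  have h0 : classInner (∑ ψ, (m ψ : ℂ) • (ψ : G → ℂ)) (χ : G → ℂ) ≠ 0 := by
    rw [classInner_sum_irr (fun φ => (m φ : ℂ))]; exact_mod_cast hm
  by_cases e : (χ : G → ℂ) = one' G
  · simp [e, one']
  obtain ⟨d, hd, hd3⟩ := three_le h hu2 χ.2 e
  have hd4 : 4 ≤ d := by
    by_contra hlt
    exact hc _ χ.2 h0 (by rw [hd, show d = 3 by omega]; norm_num)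
  rcases h.vals' χ.2 e with hv | hv
  · rw [hv, hd]
    have : (4 : ℝ) ≤ d := by exact_mod_cast hd4
    simp
    nlinarith [(Nat.cast_nonneg (m χ) : (0 : ℝ) ≤ (m χ : ℝ))]
  · simp [hv]

/-- A character of degree three is real valued. -/
theorem real_three {θ : G → ℂ} (hθ : IsIrrCharacter G θ) (h3 : θ 1 = 3) :
    ∀ g, conj (θ g) = θ g := by
  classical
  by_contra hne
  let θb : G → ℂ := fun g => conj (θ g)
  have hθb : IsIrrCharacter G θb := isIrrCharacter_conj hθ
  have hnr : θ ≠ θb := fun e => hne fun g => (congrFun e g).symm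
  have hsq := sq_three h.perfect (irrChar hθ) h3
  have hu := three_value h hu2 hθ h3
  have hθne : θ ≠ one' G := fun e => by rw [e, one'_apply] at h3; norm_num at h3
  have hθbne : θb ≠ one' G := fun e => hθne (funext fun g => by
    have := congrArg conj (congrFun e g); simpa [θb, one'] using this)
  let s : G → ℂ := θ * θ - θb
  have hs : IsCharacter G s := by
    have := isCharacter_symSquare (irrChar hθ)
    convert this using 1
    funext g
    simp only [s, θb, Pi.sub_apply, Pi.mul_apply, hsq g]
    ring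
  have hs1 : classInner s (one' G) = 0 := by
    rw [classInner_sub_left, inner_move_conj, mul_one', classInner_eq_zero_of_ne hθ hθb hnr,
      classInner_eq_zero_of_ne hθb irr_one' hθbne, sub_zero]
  have hsd : s 1 = ((6 : ℕ) : ℂ) := by
    simp [s, θb, h3, map_ofNat]; norm_num
  have hsu : s u = 2 := by
    simp [s, θb, hu]; norm_num
  have hsirr : IsIrrCharacter G s := by
    obtain ⟨ψ, hψ, hψ0⟩ := exists_constituent hs (by rw [hsd]; norm_num)
    have hψne : ψ ≠ one' G := fun e => hψ0 (e ▸ hs1)
    obtain ⟨d, hd, hd3⟩ := three_le h hu2 hψ hψne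
    obtain ⟨d', m, hd', hm, hdm, hc⟩ := split h hu2 hs hsd hψ hψ0
    have : d' = d := by rw [hd] at hd'; exact_mod_cast hd'.symm
    by_cases hm0 : m = 0
    · have := eq_zero_of_degree hc (by rw [hm, hm0]; simp)
      rw [sub_eq_zero] at this
      exact this ▸ hψ
    exfalso
    have hc1 : classInner (s - ψ) (one' G) = 0 := by
      rw [classInner_sub_left, hs1, classInner_eq_zero_of_ne hψ irr_one' hψne, sub_zero]
    obtain ⟨φ, hφ, hφ0⟩ := exists_constituent hc (by rw [hm]; exact_mod_cast hm0)
    obtain ⟨e, he, he3⟩ := three_le h hu2 hφ fun e => hφ0 (e ▸ hc1)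
    obtain ⟨e', r, he', hr, her, hc2⟩ := split h hu2 hc hm hφ hφ0
    have : e' = e := by rw [he] at he'; exact_mod_cast he'.symm
    obtain ⟨rfl, rfl, rfl⟩ : d = 3 ∧ e = 3 ∧ r = 0 := by omega
    have h0 := congrFun (eq_zero_of_degree hc2 (by rw [hr]; simp)) u
    rw [Pi.sub_apply, Pi.sub_apply, hsu, three_value h hu2 hψ (by simpa using hd),
      three_value h hu2 hφ (by simpa using he)] at h0
    norm_num at h0
  let E : G → ℂ := θ * θb - one' G
  have hnorm : classInner (θ * θ) (θ * θ) = 2 := by
    have e : θ * θ = θb + s := by simp [s]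
    rw [e, classInner_add_left, classInner_add_right, classInner_add_right,
      classInner_self_of_isIrr hθb, classInner_self_of_isIrr hsirr,
      inner_ne hθb hsirr (by rw [hsd]; simp [θb, h3, map_ofNat]),
      inner_ne hsirr hθb (by rw [hsd]; simp [θb, h3, map_ofNat])]
    norm_num
  have hT1 : classInner (θ * θb) (one' G) = 1 := by
    rw [inner_move_conj, mul_one']
    simpa [θb] using classInner_self_of_isIrr hθ
  have h1T : classInner (one' G) (θ * θb) = 1 := by
    rw [classInner_conj_symm, hT1, map_one]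
  have hTT : classInner (θ * θb) (θ * θb) = 2 := by
    rw [← hnorm]
    simp only [classInner]
    congr 1
    refine Finset.sum_congr rfl fun g _ => ?_
    simp only [Pi.mul_apply, θb, map_mul, Complex.conj_conj]
    ring
  have hE : IsIrrCharacter G E := by
    refine isIrrCharacter_of_norm_one (CharTheory.IsCharacter.isGeneralizedCharacter
      (isCharacter_sub (isCharacter_mul (irrChar hθ) (irrChar hθb)) irr_one'
        (by rw [hT1]; norm_num))) ?_ ?_
    · simp only [E, classInner_sub_left, classInner_sub_right, hTT, hT1, h1T,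
        classInner_self_of_isIrr irr_one']
      norm_num
    · simp [E, θb, h3, one', map_ofNat]; norm_num
  let A : G → ℂ := fun g => (s g ^ 2 - s (g * g)) / 2
  have hA : IsCharacter G A := ExteriorSquare.isCharacter_extSquare hs
  let sb : G → ℂ := fun g => conj (s g)
  have hsb : IsIrrCharacter G sb := isIrrCharacter_conj hsirr
  have hid : θ * E = A + sb + θ := by
    funext g
    simp only [E, A, sb, s, θb, Pi.mul_apply, Pi.sub_apply, Pi.add_apply, one', hsq g, map_sub,
      map_mul, map_pow, Complex.conj_conj, map_ofNat]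
    ring
  have hAu : (A u).re < 0 := by
    have h1 : s (u * u) = 6 := by rw [hu2, hsd]; norm_num
    simp [A, h1, hsu]
    norm_num
  obtain ⟨ψ, hψ, hψ0, hψ3⟩ := exists_three_part h hu2 hA hAu
  have hge : ∀ φ, IsIrrCharacter G φ →
      ∃ a b c : ℕ, classInner (θ * E) φ = ((a + b + c : ℕ) : ℂ) ∧ classInner A φ = a ∧
        classInner θ φ = c := by
    intro φ hφ
    obtain ⟨a, ha⟩ := inner_nat hA hφ
    obtain ⟨b, hb⟩ := inner_nat (irrChar hsb) hφ
    obtain ⟨c, hc⟩ := inner_nat (irrChar hθ) hφ
    refine ⟨a, b, c, ?_, ha, hc⟩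
    rw [hid, classInner_add_left, classInner_add_left, ha, hb, hc]
    push_cast; ring
  have hψθ : ψ = θ := by
    obtain ⟨a, b, c, habc, ha, -⟩ := hge ψ hψ
    have h0 : classInner (θ * E) ψ ≠ 0 := by
      rw [habc]
      have : a ≠ 0 := fun e => hψ0 (by rw [ha, e]; simp)
      exact_mod_cast (by omega : a + b + c ≠ 0)
    rw [mul_comm θ E, inner_move_conj] at h0
    let W : G → ℂ := θb * ψ
    have hW : IsCharacter G W := isCharacter_mul (irrChar hθb) (irrChar hψ)
    have h0' : classInner W E ≠ 0 := fun e => h0 (by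
      show classInner E W = 0
      rw [classInner_conj_symm, e, map_zero])
    have hd1 : (W - E) 1 = 1 := by
      simp [W, E, θb, h3, hψ3, one', map_ofNat]
    have hc := isCharacter_sub hW hE h0'
    obtain ⟨φ, hφ, hφ0⟩ := exists_constituent hc (by rw [hd1]; norm_num)
    obtain ⟨d, m, hd, -, hdm, hc'⟩ := split h hu2 hc (n := 1) (by simpa using hd1) hφ hφ0
    have hd' : d ≠ 0 := fun e => apply_one_ne_zero_of_isIrr hφ (by rw [hd, e]; simp)
    have hφ1 : φ = one' G :=
      eq_one'_of_degree_one h.perfect hφ (by rw [hd, show d = 1 by omega]; simp)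
    rw [hφ1, classInner_sub_left, inner_ne hE irr_one' (by
      simp [E, θb, h3, one', map_ofNat]; norm_num), sub_zero] at hφ0
    rw [show W = θb * ψ from rfl, mul_comm, inner_move_conj, mul_one'] at hφ0
    refine (eq_of_inner hψ (isIrrCharacter_conj hθb) hφ0).trans ?_
    funext g
    simp [θb]
  rw [hψθ] at hψ0
  obtain ⟨a, b, c, habc, ha, hc⟩ := hge θ hθ
  have h1 : classInner (θ * E) θ = 1 := by
    have h2 : classInner (θ * θb) E = 1 := by
      have : θ * θb = E + one' G := by simp [E]
      rw [this, classInner_add_left, classInner_self_of_isIrr hE,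
        inner_ne irr_one' hE (by simp [E, θb, h3, one', map_ofNat]; norm_num), add_zero]
    rw [mul_comm θ E, inner_move_conj]
    show classInner E (θb * θ) = 1
    rw [classInner_conj_symm, mul_comm θb θ, h2, map_one]
  rw [h1] at habc
  have ha0 : a ≠ 0 := fun e => hψ0 (by rw [ha, e]; simp)
  have hc1 : c = 1 := by
    rw [classInner_self_of_isIrr hθ] at hc; exact_mod_cast hc.symm
  have : (1 : ℕ) = a + b + c := by exact_mod_cast habc
  omega

/-- The companions of a character of degree three. -/
theorem exists_tri {θ : G → ℂ} (hθ : IsIrrCharacter G θ) (h3 : θ 1 = 3) :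
    ∃ θ' X Y, Tri (u := u) θ θ' X Y := by
  classical
  have hr := real_three h hu2 hθ h3
  have hsq : ∀ g, θ (g * g) = θ g ^ 2 - 2 * θ g := fun g => by
    rw [sq_three h.perfect (irrChar hθ) h3 g, hr]
  have hu := three_value h hu2 hθ h3
  have hθne : θ ≠ one' G := fun e => by rw [e, one'_apply] at h3; norm_num at h3
  have hθθ1 : classInner (θ * θ) (one' G) = 1 := by
    rw [inner_move _ _ _ hr, mul_one', classInner_self_of_isIrr hθ]
  have hθ1 : classInner θ (one' G) = 0 := classInner_eq_zero_of_ne hθ irr_one' hθne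
  let X : G → ℂ := θ * θ - θ - one' G
  have hXc : IsCharacter G X := by
    refine isCharacter_sub ?_ irr_one' (by rw [classInner_sub_left, hθθ1, hθ1]; norm_num)
    convert isCharacter_symSquare (irrChar hθ) using 1
    funext g
    simp only [Pi.sub_apply, Pi.mul_apply, hsq g]
    ring
  have hX5 : X 1 = ((5 : ℕ) : ℂ) := by simp [X, h3, one']; norm_num
  have hXirr : IsIrrCharacter G X := irr_of_small h hu2 hXc hX5 (by norm_num) (by norm_num) (by
    rw [classInner_sub_left, classInner_sub_left, hθθ1, hθ1, classInner_self_of_isIrr irr_one']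
    ring)
  have hXr : ∀ g, conj (X g) = X g := fun g => by simp [X, hr, one']
  have hXu : X u = 1 := by simp [X, hu, one']
  have hsq' : θ * θ = one' G + θ + X := by simp only [X]; abel
  have hθXθ : classInner (θ * X) θ = 1 := by
    rw [mul_comm, inner_move _ _ _ hr, classInner_conj_symm, hsq', classInner_add_left,
      classInner_add_left, classInner_self_of_isIrr hXirr,
      inner_ne irr_one' hXirr (by rw [hX5]; simp [one']),
      inner_ne hθ hXirr (by rw [hX5, h3]; norm_num)]
    simp
  have hθX1 : classInner (θ * X) (one' G) = 0 := by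
    rw [inner_move _ _ _ hXr, mul_one', inner_ne hθ hXirr (by rw [hX5, h3]; norm_num)]
  let B : G → ℂ := θ * X - X
  have hB : IsCharacter G B := by
    convert ExteriorSquare.isCharacter_extSquare hXc using 1
    funext g
    simp only [B, X, Pi.sub_apply, Pi.mul_apply, one', hsq (g * g), hsq g]
    ring
  have hX1 : classInner X (one' G) = 0 := inner_ne hXirr irr_one' (by rw [hX5]; simp [one'])
  have hXθ : classInner X θ = 0 := inner_ne hXirr hθ (by rw [hX5, h3]; norm_num)
  have hBθ : classInner B θ = 1 := by rw [classInner_sub_left, hθXθ, hXθ, sub_zero]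
  have hC := isCharacter_sub hB hθ (by rw [hBθ]; norm_num)
  have hC7 : (B - θ) 1 = ((7 : ℕ) : ℂ) := by simp [B, h3, hX5]; norm_num
  have hCu : ((B - θ) u).re < 0 := by simp [B, hu, hXu]
  obtain ⟨θ', hθ', hθ'0, hθ'3⟩ := exists_three_part h hu2 hC hCu
  have hne : θ' ≠ θ := fun e => hθ'0 (by
    rw [e, classInner_sub_left, hBθ, classInner_self_of_isIrr hθ, sub_self])
  have hθ'ne : θ' ≠ one' G := fun e => by rw [e, one'_apply] at hθ'3; norm_num at hθ'3
  let Y0 : G → ℂ := B - θ - θ'
  have hY0 : IsIrrCharacter G Y0 := by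
    refine irr_of_small h hu2 (n := 4) (isCharacter_sub hC hθ' hθ'0) ?_ (by norm_num) (by norm_num)
      ?_
    · show (B - θ) 1 - θ' 1 = _
      rw [hC7, hθ'3]; norm_num
    · rw [classInner_sub_left, classInner_sub_left, classInner_sub_left, hθX1, hX1, hθ1,
        classInner_eq_zero_of_ne hθ' irr_one' hθ'ne]
      ring
  have hY0d : Y0 1 = 4 := by simp [Y0, B, h3, hX5, hθ'3]; norm_num
  have hθXeq : θ * X = θ + θ' + Y0 + X := by simp only [Y0, B]; abel
  have hθXθ' : classInner (θ * X) θ' = 1 := by
    rw [hθXeq, classInner_add_left, classInner_add_left, classInner_add_left,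
      classInner_eq_zero_of_ne hθ hθ' (Ne.symm hne), classInner_self_of_isIrr hθ',
      inner_ne hY0 hθ' (by rw [hY0d, hθ'3]; norm_num),
      inner_ne hXirr hθ' (by rw [hX5, hθ'3]; norm_num)]
    ring
  have hPX : classInner (θ * θ') X = 1 := by
    rw [mul_comm, inner_move _ _ _ hr, classInner_conj_symm, hθXθ', map_one]
  let Y : G → ℂ := θ * θ' - X
  have hY : IsIrrCharacter G Y := by
    refine irr_of_small h hu2 (n := 4)
      (isCharacter_sub (isCharacter_mul (irrChar hθ) (irrChar hθ')) hXirr
        (by rw [hPX]; norm_num)) ?_ (by norm_num) (by norm_num) ?_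
    · simp [Y, h3, hX5, hθ'3]; norm_num
    · rw [classInner_sub_left, hX1, mul_comm, inner_move _ _ _ hr, mul_one',
        classInner_eq_zero_of_ne hθ' hθ hne, sub_zero]
  have hYd : Y 1 = 4 := by simp [Y, h3, hX5, hθ'3]; norm_num
  have hYY : Y = Y0 := by
    have hXX : ∃ k : ℕ, classInner (X * X) θ' = k ∧ k ≠ 0 := by
      let S : G → ℂ := fun g => (X g ^ 2 + X (g * g)) / 2
      have hS : IsCharacter G S := isCharacter_symSquare hXc
      have e : X * X = B + S := by
        funext g
        simp only [S, B, X, Pi.add_apply, Pi.mul_apply, Pi.sub_apply, one', hsq (g * g), hsq g]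
        ring
      obtain ⟨a, ha⟩ := inner_nat hS hθ'
      refine ⟨1 + a, ?_, by omega⟩
      rw [e, classInner_add_left, ha, classInner_sub_left, hθXθ',
        inner_ne hXirr hθ' (by rw [hX5, hθ'3]; norm_num)]
      push_cast; ring
    obtain ⟨k, hk, hk0⟩ := hXX
    have h1 : classInner Y (θ * X) = k := by
      have e1 : classInner (θ * θ') (θ * X) = 1 + k := by
        rw [mul_comm θ θ', inner_move _ _ _ hr, ← mul_assoc, hsq', add_mul, add_mul, one'_mul,
          classInner_conj_symm, classInner_add_left, classInner_add_left, hk, hθXθ',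
          inner_ne hXirr hθ' (by rw [hX5, hθ'3]; norm_num)]
        simp
      have e2 : classInner X (θ * X) = 1 := by
        rw [hθXeq, classInner_add_right, classInner_add_right, classInner_add_right, hXθ,
          inner_ne hXirr hθ' (by rw [hX5, hθ'3]; norm_num),
          inner_ne hXirr hY0 (by rw [hX5, hY0d]; norm_num), classInner_self_of_isIrr hXirr]
        ring
      rw [classInner_sub_left, e1, e2]
      ring
    rw [hθXeq, classInner_add_right, classInner_add_right, classInner_add_right,
      inner_ne hY hθ (by rw [hYd, h3]; norm_num),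
      inner_ne hY hθ' (by rw [hYd, hθ'3]; norm_num),
      inner_ne hY hXirr (by rw [hX5, hYd]; norm_num), zero_add, zero_add, add_zero] at h1
    exact eq_of_inner hY hY0 (by rw [h1]; exact_mod_cast hk0)
  exact ⟨θ', X, Y, ⟨hθ, hθ', hXirr, hY⟩, ⟨h3, hθ'3, by simpa using hX5, hYd⟩,
    three_value h hu2 hθ' hθ'3, hne, hr, hsq', hYY ▸ hθXeq, by simp only [Y]; abel⟩

/-- The five characters are closed under multiplication by `θ`. -/
theorem Tri.mulY {θ θ' X Y : G → ℂ} (t : Tri (u := u) θ θ' X Y) : θ * Y = θ' + Y + X := by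
  obtain ⟨⟨hθ, hθ', hX, hY⟩, ⟨h3, h3', h5, h4⟩, -, hne, hr, hsq, hmX, hm'⟩ := t
  obtain ⟨θ'', X', Y', ⟨-, hθ'', hX', hY'⟩, ⟨-, h3'', h5', h4'⟩, -, hne', hr', hsq₁, hmX', hm''⟩ :=
    exists_tri h hu2 hθ' h3'
  have hid : θ * Y = θ' * X - θ := by
    funext g
    have e1 := congrFun hsq g
    have e2 := congrFun hmX g
    have e3 := congrFun hm' g
    simp only [Pi.add_apply, Pi.mul_apply, Pi.sub_apply, one'] at e1 e2 e3 ⊢
    linear_combination θ' g * e1 - e2 - (θ g - 1) * e3
  have hYθ' : classInner (θ * Y) θ' = 1 := by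
    rw [mul_comm, inner_move _ _ _ hr, hm', classInner_add_right, classInner_self_of_isIrr hY,
      inner_ne hY hX (by rw [h4, h5]; norm_num), zero_add]
  have hXX : X = X' := by
    have h1 : classInner (X * θ') θ' = 1 := by
      have := hYθ'
      rw [hid, classInner_sub_left, classInner_eq_zero_of_ne hθ hθ' (Ne.symm hne), sub_zero,
        mul_comm] at this
      exact this
    rw [inner_move _ _ _ hr', hsq₁, classInner_add_right, classInner_add_right,
      inner_ne hX irr_one' (by rw [h5]; simp [one']), inner_ne hX hθ' (by rw [h5, h3']; norm_num),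
      zero_add, zero_add] at h1
    exact eq_of_inner hX hX' (by rw [h1]; norm_num)
  subst hXX
  have hθ''θ : θ'' = θ := by
    have h1 : classInner (θ * Y) θ = 0 := by
      rw [mul_comm, inner_move _ _ _ hr, hsq, classInner_add_right, classInner_add_right,
        inner_ne hY irr_one' (by rw [h4]; simp [one']), inner_ne hY hθ (by rw [h4, h3]; norm_num),
        inner_ne hY hX (by rw [h4, h5]; norm_num)]
      ring
    rw [hid, classInner_sub_left, hmX', classInner_add_left, classInner_add_left,
      classInner_add_left, classInner_eq_zero_of_ne hθ' hθ hne,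
      inner_ne hY' hθ (by rw [h4', h3]; norm_num), inner_ne hX hθ (by rw [h5, h3]; norm_num),
      classInner_self_of_isIrr hθ, zero_add, add_zero, add_zero] at h1
    exact eq_of_inner hθ'' hθ (by rw [sub_eq_zero.1 h1]; norm_num)
  subst hθ''θ
  have hY'Y : Y' = Y := by
    have : X + Y' = X + Y := by rw [← hm'', ← hm', mul_comm]
    exact add_left_cancel this
  subst hY'Y
  rw [hid, hmX']
  abel

end

end CfsgLib.BrauerCharacters.DegreeThree
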